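import Cfsg.Agent.H466.RT.Kill
import Cfsg.Agent.SporadicB.DoubleCoverUnique
import Cfsg.Agent.OddHalf.CoverAlt
import Cfsg.Agent.TwoFusion.A7NoSwap

/-!
# Pairs with `K / Z(K) = A_7`
-/

set_option autoImplicit false

namespace Cfsg.Agent.H466.RT

open Subgroup Cfsg Equiv
open scoped commutatorElement

/-- a perfect group has no complement to its centre, unless trivial -/
theorem not_isComplement' {K : Type*} [Group K] (hp : commutator K = ⊤) (hz : center K ≠ ⊥) (L : Subgroup K) :
    ¬ (center K).IsComplement' L := by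
  intro h
  have h1 : commutator K ≤ L := by
    rw [commutator_def, commutator_le]
    intro x _ y _
    obtain ⟨⟨⟨z, hzm⟩, ⟨l, hl⟩⟩, hx⟩ := h.2 x
    obtain ⟨⟨⟨w, hwm⟩, ⟨m, hm⟩⟩, hy⟩ := h.2 y
    change z * l = x at hx
    change w * m = y at hy
    have hz := mem_center_iff.1 hzm
    have hw := mem_center_iff.1 hwm
    have h2 : ⁅x, y⁆ = ⁅l, m⁆ := by
      rw [← hx, ← hy, commutatorElement_def, commutatorElement_def]
      calc z * l * (w * m) * (z * l)⁻¹ * (w * m)⁻¹
          = z * l * w * m * l⁻¹ * z⁻¹ * m⁻¹ * w⁻¹ := by group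
        _ = l * z * w * m * l⁻¹ * z⁻¹ * m⁻¹ * w⁻¹ := by rw [hz l]
        _ = l * (z * w) * m * l⁻¹ * z⁻¹ * m⁻¹ * w⁻¹ := by group
        _ = l * (w * z) * m * l⁻¹ * z⁻¹ * m⁻¹ * w⁻¹ := by rw [hw z]
        _ = l * w * (z * m) * l⁻¹ * z⁻¹ * m⁻¹ * w⁻¹ := by group
        _ = l * w * (m * z) * l⁻¹ * z⁻¹ * m⁻¹ * w⁻¹ := by rw [hz m]
        _ = l * w * m * (z * l⁻¹) * z⁻¹ * m⁻¹ * w⁻¹ := by group
        _ = l * w * m * (l⁻¹ * z) * z⁻¹ * m⁻¹ * w⁻¹ := by rw [hz l⁻¹]
        _ = l * w * m * l⁻¹ * m⁻¹ * w⁻¹ := by group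
        _ = w * l * m * l⁻¹ * m⁻¹ * w⁻¹ := by rw [hw l]
        _ = w * (l * m * l⁻¹ * m⁻¹) * w⁻¹ := by group
        _ = (l * m * l⁻¹ * m⁻¹) * w * w⁻¹ := by rw [hw (l * m * l⁻¹ * m⁻¹)]
        _ = l * m * l⁻¹ * m⁻¹ := by group
    rw [h2, commutatorElement_def]
    exact L.mul_mem (L.mul_mem (L.mul_mem hl hm) (L.inv_mem hl)) (L.inv_mem hm)
  rw [hp] at h1
  apply hz
  rw [eq_bot_iff]
  intro x hx
  exact h.disjoint.le_bot ⟨hx, h1 (mem_top x)⟩

/-- the 5-cycle -/
def c5 : Perm (Fin 7) := ⟨![1, 2, 3, 4, 0, 5, 6], ![4, 0, 1, 2, 3, 5, 6], by decide, by decide⟩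
/-- inverts the 5-cycle -/
def d5 : Perm (Fin 7) := ⟨![0, 4, 3, 2, 1, 5, 6], ![0, 4, 3, 2, 1, 5, 6], by decide, by decide⟩
/-- `(01)(23)` -/
def f1 : Perm (Fin 7) := ⟨![1, 0, 3, 2, 4, 5, 6], ![1, 0, 3, 2, 4, 5, 6], by decide, by decide⟩
/-- `(02)(13)` -/
def f2 : Perm (Fin 7) := ⟨![2, 3, 0, 1, 4, 5, 6], ![2, 3, 0, 1, 4, 5, 6], by decide, by decide⟩

theorem c5_mem : c5 ∈ alternatingGroup (Fin 7) := by rw [Perm.mem_alternatingGroup]; decide
theorem d5_mem : d5 ∈ alternatingGroup (Fin 7) := by rw [Perm.mem_alternatingGroup]; decide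
theorem f1_mem : f1 ∈ alternatingGroup (Fin 7) := by rw [Perm.mem_alternatingGroup]; decide
theorem f2_mem : f2 ∈ alternatingGroup (Fin 7) := by rw [Perm.mem_alternatingGroup]; decide

theorem no_invol {t : Perm (Fin 7)} (ht : t * c5 = c5 * t) (htt : t * t = 1) (hs : Perm.sign t = 1) : t = 1 := by
  have h0 : ∀ i, t (c5 i) = c5 (t i) := fun i => congrArg (fun p : Perm (Fin 7) => p i) ht
  have h1 : ∀ i, t (t i) = i := fun i => congrArg (fun p : Perm (Fin 7) => p i) htt
  have e1 : t 1 = c5 (t 0) := h0 0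
  have e2 : t 2 = c5 (c5 (t 0)) := by rw [← e1]; exact h0 1
  have e3 : t 3 = c5 (c5 (c5 (t 0))) := by rw [← e2]; exact h0 2
  have e4 : t 4 = c5 (c5 (c5 (c5 (t 0)))) := by rw [← e3]; exact h0 3
  have e5 : t 5 = c5 (t 5) := h0 5
  have e6 : t 6 = c5 (t 6) := h0 6
  have k5 : t 5 = 5 ∨ t 5 = 6 := by
    revert e5
    generalize t 5 = x
    revert x
    decide
  have k6 : t 6 = 5 ∨ t 6 = 6 := by
    revert e6
    generalize t 6 = x
    revert x
    decide
  have k0 : t 0 = 0 := by
    have hb : ∀ i, t 0 = i → t i = 0 := fun i hi => by rw [← hi]; exact h1 0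
    have hx : t 0 = 0 ∨ t 0 = 1 ∨ t 0 = 2 ∨ t 0 = 3 ∨ t 0 = 4 ∨ t 0 = 5 ∨ t 0 = 6 := by
      generalize t 0 = x
      revert x
      decide
    rcases hx with h | h | h | h | h | h | h
    · exact h
    · have := hb _ h
      rw [e1, h] at this
      exact absurd this (by decide)
    · have := hb _ h
      rw [e2, h] at this
      exact absurd this (by decide)
    · have := hb _ h
      rw [e3, h] at this
      exact absurd this (by decide)
    · have := hb _ h
      rw [e4, h] at this
      exact absurd this (by decide)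
    · have := hb _ h
      rcases k5 with h' | h' <;> rw [h'] at this <;> exact absurd this (by decide)
    · have := hb _ h
      rcases k6 with h' | h' <;> rw [h'] at this <;> exact absurd this (by decide)
  rw [k0] at e1 e2 e3 e4
  have e1' : t 1 = 1 := e1
  have e2' : t 2 = 2 := e2
  have e3' : t 3 = 3 := e3
  have e4' : t 4 = 4 := e4
  rcases k5 with h5 | h5
  · have h6 : t 6 = 6 := by
      rcases k6 with h6 | h6
      · have := h1 6
        rw [h6, h5] at this
        exact absurd this (by decide)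
      · exact h6
    apply Equiv.ext
    intro i
    fin_cases i
    · exact k0
    · exact e1'
    · exact e2'
    · exact e3'
    · exact e4'
    · exact h5
    · exact h6
  · have h6 : t 6 = 5 := by
      have := h1 5
      rw [h5] at this
      exact this
    have : t = swap 5 6 := by
      apply Equiv.ext
      intro i
      fin_cases i
      · exact k0
      · exact e1'
      · exact e2'
      · exact e3'
      · exact e4'
      · exact h5
      · exact h6
    rw [this, Perm.sign_swap (by decide)] at hs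
    exact absurd hs (by decide)

/-- **`A_7`** -/
theorem Pair.not_a7 {M : Type*} [Group M] [Finite M] {K : Subgroup M} {c : ℕ} (h : Pair M K c)
    (e : K ⧸ center K ≃* alternatingGroup (Fin 7)) : False := by
  have : Fact (Nat.Prime 2) := ⟨Nat.prime_two⟩
  have hperf : commutator K = ⊤ := h.qs.1.commutator_eq_top
  have hz2 : Nat.card (center K) = 2 := by
    have h1 := Cfsg.Agent.OddHalf.CoverAlt.card_le_two hperf (center K) le_rfl h.z2 (by norm_num : 5 ≤ 7) e
    have h2 : 1 < Nat.card (center K) := one_lt_card_iff_ne_bot _ |>.2 h.zne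
    omega
  have hcov : IsNonsplitDoubleCover K (alternatingGroup (Fin 7)) :=
    ⟨hz2, ⟨e⟩, fun L => not_isComplement' hperf h.zne L⟩
  apply h.false_of_rankOne hz2
  · intro x hx
    by_cases h1 : x = 1
    · rw [h1]; exact one_mem _
    · exact Cfsg.Agent.SporadicB.DoubleCoverUnique.seven hcov x (orderOf_eq_prime (by rw [pow_two, hx]) h1)
  · refine ⟨e.symm ⟨f1, f1_mem⟩, e.symm ⟨f2, f2_mem⟩, ?_, ?_, ?_, ?_, ?_, ?_⟩
    · rw [← map_mul, map_eq_one_iff e.symm e.symm.injective]; apply Subtype.ext; decide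
    · rw [← map_mul, map_eq_one_iff e.symm e.symm.injective]; apply Subtype.ext; decide
    · rw [Ne, map_eq_one_iff e.symm e.symm.injective]
      intro h1; exact absurd (congrArg Subtype.val h1) (by decide)
    · rw [Ne, map_eq_one_iff e.symm e.symm.injective]
      intro h1; exact absurd (congrArg Subtype.val h1) (by decide)
    · intro h1
      exact absurd (congrArg Subtype.val (e.symm.injective h1)) (by decide)
    · rw [← map_mul, ← map_mul]
      refine congrArg e.symm (Subtype.ext ?_)
      decide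
  · have hc5 : orderOf (⟨c5, c5_mem⟩ : alternatingGroup (Fin 7)) = 5 := by
      have : Fact (Nat.Prime 5) := ⟨by norm_num⟩
      apply orderOf_eq_prime
      · apply Subtype.ext; decide
      · intro h1; exact absurd (congrArg Subtype.val h1) (by decide)
    have ho : orderOf (e.symm ⟨c5, c5_mem⟩) = 5 := by
      rw [← hc5]
      exact MulEquiv.orderOf_eq e.symm _
    have hreal : Real' (e.symm ⟨c5, c5_mem⟩) := by
      refine ⟨e.symm ⟨d5, d5_mem⟩, ?_⟩
      rw [← map_mul, ← map_inv, ← map_mul, ← map_inv]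
      refine congrArg e.symm (Subtype.ext ?_)
      decide
    obtain ⟨x, hx, hxo, hx1, hxn⟩ := exists_real_odd (L := K) h.z2 hreal (by rw [ho]; decide)
      (by
        intro h1
        rw [h1, orderOf_one] at ho
        exact absurd ho (by norm_num))
    refine ⟨x, hx, hxo, hx1, ?_⟩
    have h0 : nu (Nat.card (centralizer ({e.symm ⟨c5, c5_mem⟩} : Set (K ⧸ center K)))) = 0 := by
      by_contra hcon
      have h2 : 2 ∣ Nat.card (centralizer ({e.symm ⟨c5, c5_mem⟩} : Set (K ⧸ center K))) := by
        have h4 := dvd_of_le_nu (n := Nat.card (centralizer ({e.symm ⟨c5, c5_mem⟩} : Set (K ⧸ center K))))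
          (k := 1) (card_ne _) (by omega)
        simpa using h4
      obtain ⟨⟨g, hg⟩, hgo⟩ := exists_prime_orderOf_dvd_card' 2 h2
      rw [orderOf_mk] at hgo
      have hgg : g * g = 1 := by rw [← pow_two, ← hgo, pow_orderOf_eq_one]
      have hg1 : g ≠ 1 := by
        rintro rfl
        rw [orderOf_one] at hgo
        exact absurd hgo (by norm_num)
      apply hg1
      rw [← map_eq_one_iff e e.injective]
      apply Subtype.ext
      apply no_invol
      · have h5 := mem_cent.1 hg
        rw [mul_inv_eq_iff_eq_mul] at h5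
        have h6 := congrArg e h5
        rw [map_mul, map_mul, e.apply_symm_apply] at h6
        exact congrArg Subtype.val h6
      · have h6 := congrArg e hgg
        rw [map_mul, map_one] at h6
        exact congrArg Subtype.val h6
      · exact Perm.mem_alternatingGroup.1 (e g).2
    have h1 : nu (Nat.card K) = 4 := by
      rw [nu_card_quot (center K), hz2, Nat.card_congr e.toEquiv, Cfsg.Agent.TwoFusion.A7NoSwap.card_A7]
      have e1 : nu 2520 = 3 := by
        have : (2520 : ℕ) = 2 ^ 3 * 315 := by norm_num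
        rw [this, nu_mul (by norm_num) (by norm_num), nu_two_pow, nu_odd (by decide)]
      have e2 : nu 2 = 1 := by
        have := nu_two_pow 1
        rwa [pow_one] at this
      rw [e1, e2]
    have h2 : nu (Nat.card (center K)) = 1 := by
      rw [hz2]
      have := nu_two_pow 1
      rwa [pow_one] at this
    rw [h0, h2] at hxn
    omega

end Cfsg.Agent.H466.RT
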