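import Cfsg.Agent.H466.RT.SLThree
import Cfsg.Agent.SylowL.Compare

/-!
# `SL(2, 3)` in the alternating groups of degree at least 8
-/

set_option autoImplicit false

namespace Cfsg.Agent.H466.RT

namespace AltEight

/-- `i` -/
def pi : Equiv.Perm (Fin 8) :=
  ⟨![5, 2, 0, 6, 3, 1, 7, 4], ![2, 5, 1, 4, 7, 0, 3, 6], by decide, by decide⟩
/-- `j` -/
def pj : Equiv.Perm (Fin 8) :=
  ⟨![4, 6, 3, 5, 1, 7, 0, 2], ![6, 4, 7, 2, 0, 3, 1, 5], by decide, by decide⟩
/-- `h` -/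
def ph : Equiv.Perm (Fin 8) :=
  ⟨![3, 7, 2, 6, 1, 5, 0, 4], ![6, 4, 2, 0, 7, 5, 3, 1], by decide, by decide⟩

theorem hasSL : HasSL (alternatingGroup (Fin 8)) := by
  refine ⟨⟨pi, ?_⟩, ⟨pj, ?_⟩, ⟨ph, ?_⟩, ⟨?_, ?_, ?_⟩, ?_, ?_⟩
  · rw [Equiv.Perm.mem_alternatingGroup]
    decide +kernel
  · rw [Equiv.Perm.mem_alternatingGroup]
    decide +kernel
  · rw [Equiv.Perm.mem_alternatingGroup]
    decide +kernel
  · apply Subtype.ext
    change pi * pi = pj * pj
    decide +kernel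
  · apply Subtype.ext
    change pi * pj * (pi * pj) = pi * pi
    decide +kernel
  · intro h
    have h1 : pi * pi = 1 := congrArg Subtype.val h
    revert h1
    decide +kernel
  · rw [mul_inv_eq_iff_eq_mul]
    apply Subtype.ext
    change ph * pi = pj * ph
    decide +kernel
  · rw [mul_inv_eq_iff_eq_mul]
    apply Subtype.ext
    change ph * pj = pi * pj * ph
    decide +kernel

end AltEight

/-- `SL(2, 3)` is a subgroup of `A_n` for `n ≥ 8`. -/
theorem hasSL_alt {n : ℕ} (hn : 8 ≤ n) : HasSL (alternatingGroup (Fin n)) := by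
  obtain ⟨f, hf⟩ := Cfsg.Agent.SylowL.Compare.exists_alt_hom hn
  exact AltEight.hasSL.map hf

end Cfsg.Agent.H466.RT
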