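import Cfsg.Agent.H466.RT.Quat
import Cfsg.Agent.H466.RT.Red
import Cfsg.Agent.H466.RealLift
import Cfsg.Agent.S0200

/-!
# Pairs: class sizes

* `Pair.false_of_rankOne`: no pair `M`, `K` with `|Z(K)| = 2` such that all involutions of `K` are central;
* `Pair.false_of_oneClass`: no pair `M`, `K` such that `K / Z(K)` has one class of involutions, 2-rank at
  least 3, involution centralizers 2-groups, and `|Z(K)| < |K / Z(K)|_2`.
-/

set_option autoImplicit false

namespace Cfsg.Agent.H466.RT

open Subgroup Cfsg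

section Tools

variable {M : Type*} [Group M] [Finite M]

/-- T1 -/
theorem nu_normal {K : Subgroup M} [K.Normal] (H : Subgroup M) :
    nu (Nat.card K) + nu (Nat.card H) ≤ nu (Nat.card M) + nu (Nat.card (H ⊓ K : Subgroup M)) := by
  have h1 : Nat.card (H ⊔ K : Subgroup M) * Nat.card (H ⊓ K : Subgroup M) = Nat.card H * Nat.card K := by
    have h2 := card_mul_index (K.subgroupOf (H ⊔ K))
    have h3 := card_mul_index (K.subgroupOf H)
    have h4 : Nat.card (K.subgroupOf (H ⊔ K)) = Nat.card K :=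
      Nat.card_congr (subgroupOfEquivOfLe le_sup_right).toEquiv
    have h5 : Nat.card (K.subgroupOf H) = Nat.card (H ⊓ K : Subgroup M) := by
      have h6 : K.subgroupOf H = (H ⊓ K).subgroupOf H := by
        rw [inf_comm, inf_subgroupOf_right]
      rw [h6]
      exact Nat.card_congr (subgroupOfEquivOfLe inf_le_left).toEquiv
    have h6 : (K.subgroupOf (H ⊔ K)).index = (K.subgroupOf H).index := relIndex_sup_right H K
    rw [h4, h6] at h2
    rw [h5] at h3
    rw [← h2, ← h3]
    ring
  have h2 : nu (Nat.card (H ⊔ K : Subgroup M)) ≤ nu (Nat.card M) :=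
    nu_le Nat.card_pos.ne' (card_subgroup_dvd_card _)
  have h3 := congrArg nu h1
  rw [nu_mul (card_ne _) (card_ne _), nu_mul (card_ne _) (card_ne _)] at h3
  omega

theorem nu_normal_cent {K : Subgroup M} [K.Normal] (x : K) :
    nu (Nat.card K) + nu (Nat.card (centralizer ({(x : M)} : Set M))) ≤
      nu (Nat.card M) + nu (Nat.card (centralizer ({x} : Set K))) := by
  have h1 := nu_normal (K := K) (centralizer ({(x : M)} : Set M))
  have h2 : Nat.card (centralizer ({(x : M)} : Set M) ⊓ K : Subgroup M) =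
      Nat.card (centralizer ({x} : Set K)) := by
    have h3 : (centralizer ({x} : Set K)).map K.subtype = centralizer ({(x : M)} : Set M) ⊓ K := by
      ext y
      rw [mem_map, mem_inf, mem_cent]
      constructor
      · rintro ⟨y, hy, rfl⟩
        exact ⟨congrArg Subtype.val (mem_cent.1 hy), y.2⟩
      · rintro ⟨h1, h2⟩
        exact ⟨⟨y, h2⟩, mem_cent.2 (Subtype.ext h1), rfl⟩
    rw [← h3, card_map_of_injective K.subtype_injective]
  rwa [h2] at h1

end Tools

section Lift

variable {L : Type*} [Group L] [Finite L]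

theorem nu_card_quot (N : Subgroup L) [N.Normal] :
    nu (Nat.card L) = nu (Nat.card (L ⧸ N)) + nu (Nat.card N) := by
  have h1 := card_mul_index N
  have h2 : N.index = Nat.card (L ⧸ N) := rfl
  rw [← h1, h2, nu_mul (card_ne _) Nat.card_pos.ne']
  omega

/-- Real elements of odd order of `L / Z(L)` lift to real elements of odd order. -/
theorem exists_real_odd (hz : IsPGroup 2 (center L)) {q : L ⧸ center L} (hq : Real' q)
    (ho : Odd (orderOf q)) (hq1 : q ≠ 1) : ∃ x : L, Real' x ∧ Odd (orderOf x) ∧ x ≠ 1 ∧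
      nu (Nat.card (centralizer ({x} : Set L))) ≤
        nu (Nat.card (centralizer ({q} : Set (L ⧸ center L)))) + nu (Nat.card (center L)) := by
  obtain ⟨x, hx, hxo⟩ := Cfsg.Agent.H466.RealLift.exists_odd_lift (center L) q ho
  obtain ⟨g, hg⟩ := hq
  obtain ⟨t, rfl⟩ := QuotientGroup.mk_surjective g
  have hw : x * (t * x * t⁻¹) ∈ center L := by
    rw [← QuotientGroup.eq_one_iff]
    rw [QuotientGroup.mk_mul, QuotientGroup.mk_mul, QuotientGroup.mk_mul, QuotientGroup.mk_inv, hx, hg,
      mul_inv_cancel]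
  have hxr : t * x * t⁻¹ = x⁻¹ := by
    set w := x * (t * x * t⁻¹) with hwd
    have h1 : t * x * t⁻¹ = x⁻¹ * w := by rw [hwd]; group
    have h2 : (x⁻¹ * w) ^ orderOf x = w ^ orderOf x := by
      have hc : Commute x⁻¹ w := mem_center_iff.1 hw x⁻¹
      rw [hc.mul_pow, inv_pow, pow_orderOf_eq_one, inv_one, one_mul]
    have h3 : w ^ orderOf x = 1 := by
      rw [← h2, ← h1, conj_pow, pow_orderOf_eq_one]
      group
    have h4 : w = 1 := isPGroup_of_le_odd_eq_one hz hw (Odd.of_dvd_nat hxo (orderOf_dvd_of_pow_eq_one h3))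
    rw [h1, h4, mul_one]
  refine ⟨x, ⟨t, hxr⟩, hxo, ?_, ?_⟩
  · rintro rfl
    exact hq1 hx.symm
  · have h1 := nu_card_le (cent_le_comap (N := center L) x)
    rw [hx] at h1
    have h2 : Nat.card ((centralizer ({q} : Set (L ⧸ center L))).comap (QuotientGroup.mk' (center L))) =
        Nat.card (centralizer ({q} : Set (L ⧸ center L))) * Nat.card (center L) := by
      have h2 := card_mul_index ((centralizer ({q} : Set (L ⧸ center L))).comap (QuotientGroup.mk' (center L)))
      have h3 := card_mul_index (centralizer ({q} : Set (L ⧸ center L)))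
      have h4 := card_mul_index (center L)
      have h5 := index_comap_of_surjective (centralizer ({q} : Set (L ⧸ center L)))
        (QuotientGroup.mk'_surjective (center L))
      have h6 : (center L).index = Nat.card (L ⧸ center L) := rfl
      rw [h5] at h2
      have hi : 0 < (centralizer ({q} : Set (L ⧸ center L))).index := Nat.pos_of_ne_zero index_ne_zero_of_finite
      apply Nat.eq_of_mul_eq_mul_right hi
      rw [h2, ← h4, h6, ← h3]
      ring
    rw [h2, nu_mul (card_ne _) (card_ne _)] at h1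
    exact h1

end Lift

namespace Pair

variable {M : Type*} [Group M] [Finite M] {K : Subgroup M} {c : ℕ}

/-- a real element of odd order of `K` is not central in `K` -/
theorem noncentral_of_real {x : K} (hx : Real' x) (ho : Odd (orderOf x)) (hx1 : x ≠ 1) :
    ∃ k ∈ K, k * (x : M) ≠ (x : M) * k := by
  by_contra hcon
  push Not at hcon
  obtain ⟨g, hg⟩ := hx
  have h1 : g * x = x * g := Subtype.ext (hcon g g.2)
  rw [h1, mul_inv_cancel_right] at hg
  have h2 : x ^ 2 = 1 := by
    rw [pow_two]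
    calc x * x = x * x⁻¹ := by rw [← hg]
      _ = 1 := mul_inv_cancel x
  apply hx1
  rw [← orderOf_eq_one_iff]
  rcases (Nat.dvd_prime Nat.prime_two).1 (orderOf_dvd_of_pow_eq_one h2) with h4 | h4
  · exact h4
  · rw [h4] at ho
    exact absurd ho (by decide)

theorem req_real (h : Pair M K c) {x : K} (hx : Real' x) (ho : Odd (orderOf x)) (hx1 : x ≠ 1) :
    nu (Nat.card (centralizer ({(x : M)} : Set M))) = c := by
  obtain ⟨g, hg⟩ := hx
  exact h.req x x.2 ⟨g, congrArg Subtype.val hg⟩ (noncentral_of_real ⟨g, hg⟩ ho hx1)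

variable (K) in
/-- the centre of `K` as a subgroup of `M` -/
def Zm : Subgroup M := (center K).map K.subtype

theorem mem_Zm {x : M} : x ∈ Zm K ↔ ∃ hx : x ∈ K, (⟨x, hx⟩ : K) ∈ center K := by
  constructor
  · rintro ⟨y, hy, rfl⟩
    exact ⟨y.2, hy⟩
  · rintro ⟨hx, h⟩
    exact ⟨⟨x, hx⟩, h, rfl⟩

theorem Zm_normal (hK : K.Normal) : (Zm K).Normal := by
  constructor
  intro x hx g
  obtain ⟨hxK, hxc⟩ := mem_Zm.1 hx
  refine mem_Zm.2 ⟨hK.conj_mem x hxK g, ?_⟩
  rw [mem_center_iff]
  intro k
  apply Subtype.ext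
  change (k : M) * (g * x * g⁻¹) = g * x * g⁻¹ * k
  have h1 : g⁻¹ * (k : M) * g ∈ K := by
    have := hK.conj_mem k k.2 g⁻¹
    rwa [inv_inv] at this
  have h2 : g⁻¹ * (k : M) * g * x = x * (g⁻¹ * (k : M) * g) :=
    congrArg Subtype.val (mem_center_iff.1 hxc ⟨_, h1⟩)
  calc (k : M) * (g * x * g⁻¹) = g * (g⁻¹ * (k : M) * g * x) * g⁻¹ := by group
    _ = g * x * g⁻¹ * k := by rw [h2]; group

theorem Zm_le : Zm K ≤ K := map_subtype_le _

theorem card_Zm : Nat.card (Zm K) = Nat.card (center K) := card_map_of_injective K.subtype_injective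

/-- A Sylow 2-subgroup `P` of `M` and an element `y` of `K` outside the centre whose image modulo the centre
is an involution commuting with the image of `P`. -/
theorem exists_y (h : Pair M K c) (h2 : 2 ∣ Nat.card (K ⧸ center K)) :
    ∃ P : Subgroup M, IsPGroup 2 P ∧ nu (Nat.card P) = nu (Nat.card M) ∧ ∃ y ∈ K, y ∉ Zm K ∧ y * y ∈ Zm K ∧
      ∀ p ∈ P, ∃ w ∈ Zm K, p * y * p⁻¹ = y * w := by
  have := Zm_normal h.nrm
  have := h.nrm
  obtain ⟨P, -, -, hP2, hPc⟩ := exists_sylow (⊤ : Subgroup M) (A := ⊥) IsPGroup.of_bot bot_le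
  refine ⟨P, hP2, by rw [hPc, nu_two_pow, card_top], ?_⟩
  let π := QuotientGroup.mk' (Zm K)
  have hker : ∀ g : M, π g = 1 ↔ g ∈ Zm K := fun g => QuotientGroup.eq_one_iff g
  have hc : Nat.card (K.map π) = Nat.card (K ⧸ center K) := by
    have h3 : Nat.card (K.map π) * Nat.card (Zm K) = Nat.card K := by
      have h4 := card_mul_index (π.subgroupMap K).ker
      have h5 : (π.subgroupMap K).ker.index = Nat.card (K.map π) := by
        rw [index_ker]
        rw [MonoidHom.range_eq_top.2 (π.subgroupMap_surjective K), card_top]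
      have h6 : Nat.card (π.subgroupMap K).ker = Nat.card (Zm K) := by
        have h7 : (π.subgroupMap K).ker = (Zm K).subgroupOf K := by
          ext k
          rw [MonoidHom.mem_ker, mem_subgroupOf, ← hker]
          exact ⟨fun h => congrArg Subtype.val h, fun h => Subtype.ext h⟩
        rw [h7]
        exact Nat.card_congr (subgroupOfEquivOfLe Zm_le).toEquiv
      rw [h5, h6] at h4
      rw [mul_comm]
      exact h4
    have h4 := card_mul_index (center K)
    have h5 : (center K).index = Nat.card (K ⧸ center K) := rfl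
    rw [h5, mul_comm] at h4
    rw [card_Zm] at h3
    exact Nat.eq_of_mul_eq_mul_right Nat.card_pos (h3.trans h4.symm)
  obtain ⟨v, hvK, hv1, hvv, hvP⟩ := StdLThreeFour.Syl.exists_invol_commute (hP2.map π)
    (H := K.map π) (by
      rintro _ ⟨p, -, rfl⟩ _ ⟨k, hk, rfl⟩
      exact ⟨p * k * p⁻¹, h.nrm.conj_mem k hk p, by rw [map_mul, map_mul, map_inv]⟩) (by rw [hc]; exact h2)
  obtain ⟨y, hy, rfl⟩ := hvK
  refine ⟨y, hy, ?_, ?_, ?_⟩
  · rw [← hker]
    exact hv1
  · rw [← hker, map_mul]
    exact hvv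
  · intro p hp
    refine ⟨y⁻¹ * (p * y * p⁻¹), ?_, by group⟩
    rw [← hker]
    have h3 : π p * π y = π y * π p := hvP (π p) ⟨p, hp, rfl⟩
    rw [map_mul, map_mul, map_mul, map_inv, map_inv, h3, mul_inv_cancel_right, inv_mul_cancel]

/-- **rank one** -/
theorem false_of_rankOne (h : Pair M K c) (hz : Nat.card (center K) = 2)
    (huniq : ∀ x : K, x * x = 1 → x ∈ center K)
    (hfour : ∃ s t : K ⧸ center K, s * s = 1 ∧ t * t = 1 ∧ s ≠ 1 ∧ t ≠ 1 ∧ s ≠ t ∧ s * t = t * s)
    (hreal : ∃ x : K, Real' x ∧ Odd (orderOf x) ∧ x ≠ 1 ∧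
      nu (Nat.card (centralizer ({x} : Set K))) + 2 ≤ nu (Nat.card K)) : False := by
  have : Fact (Nat.Prime 2) := ⟨Nat.prime_two⟩
  have := Zm_normal h.nrm
  have hn := h.nrm
  obtain ⟨s, t, hs, ht, hs1, ht1, hst, hcomm⟩ := hfour
  have h2 : 2 ∣ Nat.card (K ⧸ center K) := by
    have h3 : orderOf s = 2 := orderOf_eq_prime (by rw [pow_two, hs]) hs1
    rw [← h3]
    exact orderOf_dvd_natCard s
  obtain ⟨P, hP2, hPc, y, hyK, hyZ, hyy, hyP⟩ := h.exists_y h2
  -- the central involution
  have hZ : Nat.card (Zm K) = 2 := by rw [card_Zm, hz]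
  obtain ⟨z, hz1, hzall⟩ : ∃ z : M, z ≠ 1 ∧ ∀ w ∈ Zm K, w = 1 ∨ w = z := by
    obtain ⟨a, b, hab, hall⟩ := Nat.card_eq_two_iff.1 hZ
    have hall' : ∀ w : Zm K, w = a ∨ w = b := fun w => by
      have : w ∈ ({a, b} : Set (Zm K)) := by rw [hall]; trivial
      simpa using this
    rcases hall' 1 with h1 | h1
    · refine ⟨b, ?_, ?_⟩
      · intro hb
        apply hab
        rw [← h1]
        exact Subtype.ext hb.symm
      · intro w hw
        rcases hall' ⟨w, hw⟩ with h3 | h3
        · left
          rw [← h1] at h3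
          exact congrArg Subtype.val h3
        · right
          exact congrArg Subtype.val h3
    · refine ⟨a, ?_, ?_⟩
      · intro ha
        apply hab
        rw [← h1]
        exact Subtype.ext ha
      · intro w hw
        rcases hall' ⟨w, hw⟩ with h3 | h3
        · right
          exact congrArg Subtype.val h3
        · left
          rw [← h1] at h3
          exact congrArg Subtype.val h3
  have hsq : ∀ x ∈ K, x ∉ Zm K → x * x ∈ Zm K → x * x = z := by
    intro x hxK hxZ hxx
    rcases hzall _ hxx with h1 | h1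
    · exfalso
      apply hxZ
      exact mem_Zm.2 ⟨hxK, huniq ⟨x, hxK⟩ (Subtype.ext h1)⟩
    · exact h1
  have hyz := hsq y hyK hyZ hyy
  have hzz : z * z = 1 := by
    have h1 : z * z ∈ Zm K := by
      rw [← hyz]
      exact (Zm K).mul_mem hyy hyy
    rcases hzall _ h1 with h3 | h3
    · exact h3
    · exact absurd (mul_eq_left.1 h3) hz1
  have hyi : y⁻¹ = y * z := by
    apply inv_eq_of_mul_eq_one_right
    rw [← mul_assoc, hyz, hzz]
  have hPy : P ≤ cst y := by
    intro p hp
    obtain ⟨w, hw, hpw⟩ := hyP p hp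
    rcases hzall w hw with rfl | rfl
    · left
      rw [hpw, mul_one]
    · right
      rw [hpw, hyi]
  have hyy1 : y * y ≠ 1 := by rw [hyz]; exact hz1
  -- `y` is real
  have hyr : Real' y := by
    by_contra hcon
    have hyc : ∀ p ∈ P, p * y * p⁻¹ = y := by
      intro p hp
      rcases hPy hp with h1 | h1
      · exact h1
      · exact absurd ⟨p, h1⟩ hcon
    -- lifts of `s`, `t`
    obtain ⟨s, rfl⟩ := QuotientGroup.mk_surjective s
    obtain ⟨t, rfl⟩ := QuotientGroup.mk_surjective t
    have hsZ : (s : M) * s ∈ Zm K := ⟨s * s, by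
      rw [SetLike.mem_coe, ← QuotientGroup.eq_one_iff, QuotientGroup.mk_mul, hs], rfl⟩
    have htZ : (t : M) * t ∈ Zm K := ⟨t * t, by
      rw [SetLike.mem_coe, ← QuotientGroup.eq_one_iff, QuotientGroup.mk_mul, ht], rfl⟩
    have hsn : (s : M) ∉ Zm K := by
      intro h1
      obtain ⟨_, h3⟩ := mem_Zm.1 h1
      exact hs1 ((QuotientGroup.eq_one_iff s).2 h3)
    have htn : (t : M) ∉ Zm K := by
      intro h1
      obtain ⟨_, h3⟩ := mem_Zm.1 h1
      exact ht1 ((QuotientGroup.eq_one_iff t).2 h3)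
    have hstn : (s : M)⁻¹ * t ∉ Zm K := by
      intro h1
      obtain ⟨_, h3⟩ := mem_Zm.1 h1
      exact hst (QuotientGroup.eq.2 h3)
    have hstc : ((t : M) * s)⁻¹ * (s * t) ∈ Zm K := ⟨(t * s)⁻¹ * (s * t), by
      rw [SetLike.mem_coe, ← QuotientGroup.eq, QuotientGroup.mk_mul, QuotientGroup.mk_mul, hcomm], rfl⟩
    -- the subgroup `⟨s, t⟩ Z` is a 2-group
    let π := QuotientGroup.mk' (Zm K)
    have hker : ∀ g : M, π g = 1 ↔ g ∈ Zm K := fun g => QuotientGroup.eq_one_iff g
    have hZ2 : IsPGroup 2 (Zm K) := h.z2.map _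
    have hss : π s * π s = 1 := by rw [← map_mul, hker]; exact hsZ
    have htt : π t * π t = 1 := by rw [← map_mul, hker]; exact htZ
    have hts : π s * π t = π t * π s := by
      have h3 := (hker _).2 hstc
      rw [map_mul, map_inv, map_mul, map_mul, inv_mul_eq_one] at h3
      exact h3.symm
    have hE2 : IsPGroup 2 (zpowers (π s) ⊔ zpowers (π t) : Subgroup (M ⧸ Zm K)) := by
      have h3 : IsPGroup 2 (zpowers (π s)) := Cfsg.Agent.HexOut.isPGroup_zpowers_of_sq hss
      have h4 : IsPGroup 2 (zpowers (π t)) := Cfsg.Agent.HexOut.isPGroup_zpowers_of_sq htt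
      apply IsPGroup.to_sup_of_normal_left' h3 h4
      rw [zpowers_le, mem_normalizer_iff]
      intro x
      have h5 : ∀ x ∈ zpowers (π s), π t * x = x * π t := by
        intro x hx
        obtain ⟨k, rfl⟩ := mem_zpowers_iff.1 hx
        exact ((show Commute (π t) (π s) from hts.symm).zpow_right k)
      constructor
      · intro hx
        rw [h5 x hx, mul_inv_cancel_right]
        exact hx
      · intro hx
        have h6 := h5 _ hx
        have h7 : π t * (π t * x * (π t)⁻¹) * (π t)⁻¹ = π t * x * (π t)⁻¹ := by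
          rw [h6]; group
        have h8 : π t * x * (π t)⁻¹ = x := by
          have h9 : π t * (π t * x * (π t)⁻¹) * (π t)⁻¹ = (π t * π t) * x * (π t * π t)⁻¹ := by group
          rw [h9, htt] at h7
          rw [← h7]; group
        rw [h8] at hx
        exact hx
    -- a Sylow 2-subgroup `P` and its image
    have hPs : ∃ Q : Sylow 2 M, (Q : Subgroup M) = P := by
      obtain ⟨Q, hQ⟩ := hP2.exists_le_sylow
      refine ⟨Q, ?_⟩
      symm
      apply eq_of_le_of_card_ge hQ
      rw [Sylow.card_eq_multiplicity]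
      obtain ⟨n, hn⟩ := IsPGroup.iff_card.1 hP2
      have h3 : n = (Nat.card M).factorization 2 := by
        have := hPc
        rw [hn, nu_two_pow] at this
        exact this
      rw [hn, h3]
    obtain ⟨Q, rfl⟩ := hPs
    obtain ⟨R, hR⟩ := hE2.exists_le_sylow
    let Qb : Sylow 2 (M ⧸ Zm K) := Q.mapSurjective (QuotientGroup.mk'_surjective (Zm K))
    obtain ⟨g, hg⟩ := MulAction.exists_smul_eq (M ⧸ Zm K) R Qb
    obtain ⟨g, rfl⟩ := QuotientGroup.mk'_surjective (Zm K) g
    have hmem : ∀ x : M, π x ∈ zpowers (π s) ⊔ zpowers (π t) → ∃ q ∈ (Q : Subgroup M), π q = π (g * x * g⁻¹) := by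
      intro x hx
      have h3 : π g * π x * (π g)⁻¹ ∈ (Qb : Subgroup (M ⧸ Zm K)) := by
        rw [← hg]
        rw [Sylow.coe_subgroup_smul, Subgroup.mem_pointwise_smul_iff_inv_smul_mem]
        have h4 : (MulAut.conj (π g))⁻¹ • (π g * π x * (π g)⁻¹) = π x := by
          rw [← map_inv, MulAut.smul_def, MulAut.conj_apply]
          group
        have h5 : (MulAut.conj (π g))⁻¹ • (π g * π x * (π g)⁻¹) ∈ (R : Subgroup (M ⧸ Zm K)) := by
          rw [h4]
          exact hR hx
        exact h5
      have h4 : (Qb : Subgroup (M ⧸ Zm K)) = (Q : Subgroup M).map π := rfl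
      rw [h4] at h3
      obtain ⟨q, hq, he⟩ := h3
      exact ⟨q, hq, by rw [he, map_mul, map_mul, map_inv]⟩
    -- every element of `K` with square in `Z`, conjugated into `P`, is congruent to `y`
    have hkey : ∀ x ∈ K, x ∉ Zm K → x * x ∈ Zm K → π x ∈ zpowers (π s) ⊔ zpowers (π t) →
        π (g * x * g⁻¹) = π y := by
      intro x hxK hxZ hxx hxE
      obtain ⟨q, hq, he⟩ := hmem x hxE
      have hgK : g * x * g⁻¹ ∈ K := h.nrm.conj_mem x hxK g
      have hqd : q⁻¹ * (g * x * g⁻¹) ∈ Zm K := by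
        rw [← hker, map_mul, map_inv, he, inv_mul_cancel]
      have hqK : q ∈ K := by
        have h3 : q = g * x * g⁻¹ * (q⁻¹ * (g * x * g⁻¹))⁻¹ := by group
        rw [h3]
        exact K.mul_mem hgK (K.inv_mem (Zm_le hqd))
      have hqZ : q ∉ Zm K := by
        intro h3
        apply hxZ
        rw [← hker] at h3 ⊢
        rw [h3, map_mul, map_mul, map_inv] at he
        have h4 : π x = (π g)⁻¹ * (π g * π x * (π g)⁻¹) * π g := by group
        rw [h4, ← he]
        group
      have hqq : q * q ∈ Zm K := by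
        rw [← hker, map_mul, he, ← map_mul]
        have h3 : g * x * g⁻¹ * (g * x * g⁻¹) = g * (x * x) * g⁻¹ := by group
        rw [h3, hker]
        exact (Zm_normal h.nrm).conj_mem _ hxx g
      have hqz := hsq q hqK hqZ hqq
      have hqy : q * y = y * q := by
        have h3 := hyc q hq
        rw [mul_inv_eq_iff_eq_mul] at h3
        exact h3
      have h3 : (q * y) * (q * y) = 1 := by
        calc (q * y) * (q * y) = q * (y * q) * y := by group
          _ = (q * q) * (y * y) := by rw [← hqy]; group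
          _ = 1 := by rw [hqz, hyz, hzz]
      have h4 : q * y ∈ Zm K :=
        mem_Zm.2 ⟨K.mul_mem hqK hyK, huniq ⟨q * y, K.mul_mem hqK hyK⟩ (Subtype.ext h3)⟩
      rw [← he]
      rw [← hker, map_mul] at h4
      have h5 : π y * π y = 1 := by rw [← map_mul, hker]; exact hyy
      calc π q = (π y)⁻¹ := eq_inv_of_mul_eq_one_left h4
        _ = π y := inv_eq_of_mul_eq_one_left h5
    have h3 := hkey s s.2 hsn hsZ (mem_sup_left (mem_zpowers _))
    have h4 := hkey t t.2 htn htZ (mem_sup_right (mem_zpowers _))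
    apply hstn
    rw [← hker]
    have h5 : π ((s : M)⁻¹ * t) = (π g)⁻¹ * ((π (g * s * g⁻¹))⁻¹ * π (g * t * g⁻¹)) * π g := by
      rw [← map_inv, ← map_inv, ← map_mul, ← map_mul, ← map_mul]
      congr 1
      group
    rw [h5, h3, h4]
    group
  have h3 := h.req y hyK hyr (by
    by_contra hcon
    push Not at hcon
    apply hyZ
    refine mem_Zm.2 ⟨hyK, ?_⟩
    rw [mem_center_iff]
    intro k
    exact Subtype.ext (hcon k k.2))
  have h4 := nu_cst hyr hyy1
  have h5 := nu_card_le hPy
  obtain ⟨x, hxr, hxo, hx1, hxc⟩ := hreal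
  have h6 := h.req_real hxr hxo hx1
  have h7 := nu_normal_cent (K := K) x
  omega

end Pair

end Cfsg.Agent.H466.RT
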