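import Cfsg.Agent.H466.RT.OneClass
import Cfsg.Agent.S0820
import Cfsg.Agent.S0243

/-!
# `L_3(4)`
-/

set_option autoImplicit false

namespace Cfsg.Agent.H466.RT

open Subgroup Cfsg Matrix

/-- one class of involutions, 2-rank at least 3, centralizers of involutions 2-groups -/
structure Easy (X : Type*) [Group X] : Prop where
  cl : OneCl X
  cent : ∀ s : X, s * s = 1 → s ≠ 1 → IsPGroup 2 (centralizer ({s} : Set X))
  three : ∃ r s t : X, Three r s t

theorem Three.map {X Y : Type*} [Group X] [Group Y] (f : X →* Y) (hf : Function.Injective f) {r s t : X}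
    (h : Three r s t) : Three (f r) (f s) (f t) where
  rr := by rw [← map_mul, h.rr, map_one]
  ss := by rw [← map_mul, h.ss, map_one]
  tt := by rw [← map_mul, h.tt, map_one]
  rs := by rw [← map_mul, h.rs, map_mul]
  rt := by rw [← map_mul, h.rt, map_mul]
  st := by rw [← map_mul, h.st, map_mul]
  r1 := fun h1 => h.r1 ((map_eq_one_iff f hf).1 h1)
  s1 := fun h1 => h.s1 ((map_eq_one_iff f hf).1 h1)
  t1 := fun h1 => h.t1 ((map_eq_one_iff f hf).1 h1)
  hrs := fun h1 => h.hrs (hf h1)
  hrt := fun h1 => h.hrt (hf h1)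
  hst := fun h1 => h.hst (hf h1)
  hrst := fun h1 => h.hrst (hf (by rw [map_mul, h1]))

theorem Easy.of_equiv {X Y : Type*} [Group X] [Group Y] (e : X ≃* Y) (h : Easy X) : Easy Y where
  cl := by
    intro s t hs hs1 ht ht1
    have h1 := h.cl (e.symm s) (e.symm t) (by rw [← map_mul, hs, map_one])
      (fun h2 => hs1 ((map_eq_one_iff e.symm e.symm.injective).1 h2)) (by rw [← map_mul, ht, map_one])
      (fun h2 => ht1 ((map_eq_one_iff e.symm e.symm.injective).1 h2))
    obtain ⟨c, hc⟩ := isConj_iff.1 h1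
    rw [isConj_iff]
    refine ⟨e c, ?_⟩
    have h2 := congrArg e hc
    rw [map_mul, map_mul, map_inv, e.apply_symm_apply, e.apply_symm_apply] at h2
    exact h2
  cent := by
    intro s hs hs1
    have h1 := h.cent (e.symm s) (by rw [← map_mul, hs, map_one])
      (fun h2 => hs1 ((map_eq_one_iff e.symm e.symm.injective).1 h2))
    rintro ⟨x, hx⟩
    obtain ⟨k, hk⟩ := h1 ⟨e.symm x, by
      rw [mem_cent] at hx ⊢
      rw [← map_mul, ← map_inv, ← map_mul, hx]⟩
    refine ⟨k, Subtype.ext ?_⟩
    have h2 : e.symm x ^ 2 ^ k = 1 := congrArg Subtype.val hk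
    rw [← map_pow] at h2
    exact (map_eq_one_iff e.symm e.symm.injective).1 h2
  three := by
    obtain ⟨r, s, t, h3⟩ := h.three
    exact ⟨_, _, _, h3.map e.toMonoidHom e.injective⟩

theorem Pair.not_easy {M : Type*} [Group M] [Finite M] {K : Subgroup M} {c : ℕ} (h : Pair M K c)
    (he : Easy (K ⧸ center K)) (hcard : Nat.card (center K) < 2 ^ nu (Nat.card (K ⧸ center K))) : False :=
  h.false_of_oneClass he.cl he.cent he.three hcard

section PSL

variable {F : Type*} [Field F]

/-- `1 + x E₀₂ + y E₁₂` -/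
def uxy (x y : F) : SpecialLinearGroup (Fin 3) F := ⟨!![1, 0, x; 0, 1, y; 0, 0, 1], by
  simp [det_fin_three]⟩

theorem uxy_mul (x y x' y' : F) : uxy x y * uxy x' y' = uxy (x + x') (y + y') := by
  apply Subtype.ext
  change (!![1, 0, x; 0, 1, y; 0, 0, 1] : Matrix (Fin 3) (Fin 3) F) * !![1, 0, x'; 0, 1, y'; 0, 0, 1] =
    !![1, 0, x + x'; 0, 1, y + y'; 0, 0, 1]
  ext i j
  fin_cases i <;> fin_cases j <;> simp [Matrix.mul_apply, Fin.sum_univ_three, add_comm]

theorem uxy_center {x y : F} (h : uxy x y ∈ center (SpecialLinearGroup (Fin 3) F)) : x = 0 ∧ y = 0 := by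
  obtain ⟨r, -, hr⟩ := Matrix.SpecialLinearGroup.mem_center_iff.mp h
  have h02 := congrFun (congrFun hr 0) 2
  have h12 := congrFun (congrFun hr 1) 2
  simp [uxy, Matrix.scalar_apply, Matrix.diagonal_apply] at h02 h12
  exact ⟨h02.symm, h12.symm⟩

theorem mk_uxy_ne {x y x' y' : F} (h : (x, y) ≠ (x', y')) :
    (QuotientGroup.mk (uxy x y) : ProjectiveSpecialLinearGroup (Fin 3) F) ≠ QuotientGroup.mk (uxy x' y') := by
  intro h1
  rw [QuotientGroup.eq] at h1
  have h2 : (uxy x y)⁻¹ = uxy (-x) (-y) := by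
    apply inv_eq_of_mul_eq_one_right
    rw [uxy_mul, add_neg_cancel, add_neg_cancel]
    apply Subtype.ext
    ext i j
    fin_cases i <;> fin_cases j <;> simp [uxy]
  rw [h2, uxy_mul] at h1
  obtain ⟨h3, h4⟩ := uxy_center h1
  apply h
  rw [Prod.mk.injEq]
  exact ⟨(neg_add_eq_zero.1 h3), (neg_add_eq_zero.1 h4)⟩

variable [Fintype F]

theorem two_eq_zero (hF : Fintype.card F = 4) : (2 : F) = 0 := by
  have h4 : ((Fintype.card F : ℕ) : F) = 0 := Nat.cast_card_eq_zero F
  rw [hF] at h4
  have : (2 : F) * 2 = 0 := by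
    have h5 : ((4 : ℕ) : F) = 2 * 2 := by norm_num
    rw [← h5, h4]
  simpa using this

theorem add_self' (hF : Fintype.card F = 4) (x : F) : x + x = 0 := by
  rw [← two_mul, two_eq_zero hF, zero_mul]

/-- the transvection -/
def tv : SpecialLinearGroup (Fin 3) F := ⟨!![1, 1, 0; 0, 1, 0; 0, 0, 1], by
  simp [det_fin_three]⟩

omit [Fintype F] in
theorem tv_val : (tv (F := F)).val = !![1, 1, 0; 0, 1, 0; 0, 0, 1] := rfl

theorem tv_tv (hF : Fintype.card F = 4) : (tv : SpecialLinearGroup (Fin 3) F) * tv = 1 := by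
  apply Subtype.ext
  change (tv (F := F)).val * (tv (F := F)).val = 1
  have := add_self' hF (1 : F)
  rw [tv_val]
  ext i j
  fin_cases i <;> fin_cases j <;> simp [Matrix.mul_apply, Fin.sum_univ_three, this]

theorem tv_not_center : (tv : SpecialLinearGroup (Fin 3) F) ∉ center (SpecialLinearGroup (Fin 3) F) := by
  intro h
  obtain ⟨r, -, hr⟩ := Matrix.SpecialLinearGroup.mem_center_iff.mp h
  have h01 := congrFun (congrFun hr 0) 1
  have h2 : (tv (F := F)).val 0 1 = 1 := by rw [tv_val]; simp
  change _ = (tv (F := F)).val 0 1 at h01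
  rw [h2] at h01
  simp [Matrix.scalar_apply, Matrix.diagonal_apply] at h01

theorem pow_three_of_center {z : SpecialLinearGroup (Fin 3) F} (hz : z ∈ center (SpecialLinearGroup (Fin 3) F)) :
    z ^ 3 = 1 := by
  obtain ⟨r, hr, hr'⟩ := Matrix.SpecialLinearGroup.mem_center_iff.mp hz
  rw [Fintype.card_fin] at hr
  apply Subtype.ext
  rw [Matrix.SpecialLinearGroup.coe_pow, ← hr', ← map_pow, hr, map_one]
  rfl

theorem pow_four (hF : Fintype.card F = 4) {g : SpecialLinearGroup (Fin 3) F} (hg : g * tv = tv * g) :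
    g ^ 4 ∈ center (SpecialLinearGroup (Fin 3) F) := by
  have ha := add_self' hF
  have h1 : ∀ i j, (g * tv).val i j = (tv * g).val i j := fun i j => by rw [hg]
  have h2 : ∀ i j, (g * tv).val i j = g.val i j + (if j = 1 then g.val i 0 else 0) := by
    intro i j
    change (g.val * (tv (F := F)).val) i j = _
    rw [Matrix.mul_apply, Fin.sum_univ_three, tv_val]
    fin_cases j <;> simp
    exact add_comm _ _
  have h3 : ∀ i j, (tv * g).val i j = g.val i j + (if i = 0 then g.val 1 j else 0) := by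
    intro i j
    change ((tv (F := F)).val * g.val) i j = _
    rw [Matrix.mul_apply, Fin.sum_univ_three, tv_val]
    fin_cases i <;> simp
  have h4 : ∀ i j, (if j = 1 then g.val i 0 else 0) = (if i = 0 then g.val 1 j else 0) := by
    intro i j
    have := h1 i j
    rw [h2, h3] at this
    exact add_left_cancel this
  have g10 : g.val 1 0 = 0 := by simpa using (h4 0 0).symm
  have g11 : g.val 1 1 = g.val 0 0 := by simpa using (h4 0 1).symm
  have g12 : g.val 1 2 = 0 := by simpa using (h4 0 2).symm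
  have g20 : g.val 2 0 = 0 := by simpa using (h4 2 1)
  have hdet : g.val.det = 1 := g.2
  rw [det_fin_three, g10, g11, g12, g20] at hdet
  set a := g.val 0 0 with had
  have hd2 : a * a * g.val 2 2 = 1 := by linear_combination hdet
  have ha0 : a ≠ 0 := by
    intro h0
    rw [h0] at hd2
    simp at hd2
  have ha3 : a ^ 3 = 1 := by
    have := FiniteField.pow_card_sub_one_eq_one a ha0
    rwa [hF] at this
  have g22 : g.val 2 2 = a := by
    have : a * a * g.val 2 2 = a * a * a := by
      rw [hd2]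
      have : a * a * a = a ^ 3 := by ring
      rw [this, ha3]
    exact mul_left_cancel₀ (mul_ne_zero ha0 ha0) this
  set b := g.val 0 1 with hb
  set p := g.val 0 2 with hp
  set q := g.val 2 1 with hq
  have hg : g.val = !![a, b, p; 0, a, 0; 0, q, a] := by
    ext i j
    fin_cases i <;> fin_cases j <;> simp [had, hb, hp, hq, g10, g11, g12, g20, g22]
  have hg2 : g.val * g.val = !![a * a, p * q, 0; 0, a * a, 0; 0, 0, a * a] := by
    rw [hg]
    ext i j
    fin_cases i <;> fin_cases j <;> simp [Matrix.mul_apply, Fin.sum_univ_three]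
    · linear_combination ha (a * b)
    · linear_combination ha (a * p)
    · linear_combination ha (a * q)
  have hg4 : (g ^ 4).val = !![a, 0, 0; 0, a, 0; 0, 0, a] := by
    have e1 : (g ^ 4).val = (g.val * g.val) * (g.val * g.val) := by
      rw [Matrix.SpecialLinearGroup.coe_pow]
      have : g.val ^ 4 = (g.val * g.val) * (g.val * g.val) := by
        rw [← pow_two, ← pow_two, ← pow_mul]
      exact this
    have e2 : a * a * (a * a) = a := by
      linear_combination a * ha3
    rw [e1, hg2]
    ext i j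
    fin_cases i <;> fin_cases j <;> simp [Matrix.mul_apply, Fin.sum_univ_three, e2]
    linear_combination ha (a * a * (p * q))
  rw [Matrix.SpecialLinearGroup.mem_center_iff]
  refine ⟨a, by rw [Fintype.card_fin]; exact ha3, ?_⟩
  change _ = (g ^ 4).val
  rw [hg4]
  ext i j
  fin_cases i <;> fin_cases j <;> simp [Matrix.scalar_apply, Matrix.diagonal_apply]

theorem easy_psl34 (hF : Fintype.card F = 4) : Easy (ProjectiveSpecialLinearGroup (Fin 3) F) := by
  have : Fact (Nat.Prime 2) := ⟨Nat.prime_two⟩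
  have hcl : OneCl (ProjectiveSpecialLinearGroup (Fin 3) F) := by
    intro s t hs hs1 ht ht1
    exact Cfsg.Agent.S0820.result hF s t (orderOf_eq_prime (by rw [pow_two, hs]) hs1)
      (orderOf_eq_prime (by rw [pow_two, ht]) ht1)
  have ha := add_self' hF
  refine ⟨hcl, ?_, ?_⟩
  · -- the fixed transvection
    have key : ∀ x : ProjectiveSpecialLinearGroup (Fin 3) F,
        x * QuotientGroup.mk tv * x⁻¹ = QuotientGroup.mk tv → x ^ 4 = 1 := by
      intro x hx
      obtain ⟨g, rfl⟩ := QuotientGroup.mk_surjective x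
      have h1 : (g * tv * g⁻¹)⁻¹ * tv ∈ center (SpecialLinearGroup (Fin 3) F) := by
        rw [← QuotientGroup.eq]
        exact hx
      obtain ⟨z, hz⟩ : ∃ z, z = (g * tv * g⁻¹)⁻¹ * tv := ⟨_, rfl⟩
      rw [← hz] at h1
      have hzc := mem_center_iff.1 h1
      have h2 : tv = g * tv * g⁻¹ * z := by rw [hz]; group
      have h3 : z * z = 1 := by
        have h4 : (tv : SpecialLinearGroup (Fin 3) F) * tv = 1 := tv_tv hF
        calc z * z = (g * (tv * tv) * g⁻¹) * (z * z) := by rw [h4]; group
          _ = (g * tv * g⁻¹) * ((g * tv * g⁻¹) * z) * z := by group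
          _ = (g * tv * g⁻¹) * (z * (g * tv * g⁻¹)) * z := by rw [hzc (g * tv * g⁻¹)]
          _ = (g * tv * g⁻¹ * z) * (g * tv * g⁻¹ * z) := by group
          _ = 1 := by rw [← h2, h4]
      have h5 : z = 1 := by
        have h6 := pow_three_of_center h1
        have h7 : z ^ 3 = z * z * z := by rw [pow_succ, pow_two]
        rw [h7, h3, one_mul] at h6
        exact h6
      rw [h5, mul_one] at h2
      have h7 : g * tv = tv * g := by
        rw [← mul_inv_eq_iff_eq_mul]
        exact h2.symm
      have h8 := pow_four hF h7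
      rw [← QuotientGroup.eq_one_iff] at h8
      exact h8
    have htv : (QuotientGroup.mk tv : ProjectiveSpecialLinearGroup (Fin 3) F) * QuotientGroup.mk tv = 1 := by
      rw [← QuotientGroup.mk_mul, tv_tv hF]
      rfl
    have htv1 : (QuotientGroup.mk tv : ProjectiveSpecialLinearGroup (Fin 3) F) ≠ 1 := by
      intro h1
      exact tv_not_center ((QuotientGroup.eq_one_iff _).1 h1)
    intro s hs hs1
    obtain ⟨c, hc⟩ := isConj_iff.1 (hcl _ s htv htv1 hs hs1)
    rintro ⟨x, hx⟩
    refine ⟨2, Subtype.ext ?_⟩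
    change x ^ 4 = 1
    rw [mem_cent] at hx
    have h1 : (c⁻¹ * x * c) ^ 4 = 1 := by
      apply key
      rw [← hc] at hx
      calc c⁻¹ * x * c * QuotientGroup.mk tv * (c⁻¹ * x * c)⁻¹
          = c⁻¹ * (x * (c * QuotientGroup.mk tv * c⁻¹) * x⁻¹) * c := by group
        _ = QuotientGroup.mk tv := by rw [hx]; group
    have h2 : (c⁻¹ * x * c) ^ 4 = c⁻¹ * x ^ 4 * c := by
      have := conj_pow (a := c⁻¹) (b := x) (i := 4)
      rwa [inv_inv] at this
    rw [h2] at h1
    calc x ^ 4 = c * (c⁻¹ * x ^ 4 * c) * c⁻¹ := by group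
      _ = 1 := by rw [h1]; group
  · obtain ⟨w, hw⟩ : ∃ w : F, w ≠ 0 ∧ w ≠ 1 := by
      by_contra hcon
      push Not at hcon
      have : Fintype.card F ≤ 2 := by
        classical
        have h1 : (Finset.univ : Finset F) ⊆ {0, 1} := by
          intro x _
          by_cases h0 : x = 0
          · simp [h0]
          · simp [hcon x h0]
        have h2 := Finset.card_le_card h1
        rw [Finset.card_univ] at h2
        exact h2.trans Finset.card_le_two
      omega
    have e00 : uxy (0 : F) 0 = 1 := by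
      apply Subtype.ext
      ext i j
      fin_cases i <;> fin_cases j <;> simp [uxy]
    have hone : (1 : ProjectiveSpecialLinearGroup (Fin 3) F) = QuotientGroup.mk (uxy 0 0) := by rw [e00]; rfl
    have hmul : ∀ x y x' y' : F, (QuotientGroup.mk (uxy x y) : ProjectiveSpecialLinearGroup (Fin 3) F) *
        QuotientGroup.mk (uxy x' y') = QuotientGroup.mk (uxy (x + x') (y + y')) := by
      intro x y x' y'
      rw [← uxy_mul]
      rfl
    refine ⟨QuotientGroup.mk (uxy 1 0), QuotientGroup.mk (uxy w 0), QuotientGroup.mk (uxy 0 1), ?_⟩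
    constructor
    · rw [hmul, ha, ha, hone]
    · rw [hmul, ha, ha, hone]
    · rw [hmul, ha, ha, hone]
    · rw [hmul, hmul, add_comm 1 w]
    · rw [hmul, hmul, add_comm 1 0, add_comm (0 : F) 1]
    · rw [hmul, hmul, add_comm w 0, add_comm (0 : F) 1]
    · rw [hone]; apply mk_uxy_ne; simp
    · rw [hone]; apply mk_uxy_ne; simp [hw.1]
    · rw [hone]; apply mk_uxy_ne; simp
    · apply mk_uxy_ne
      intro h
      rw [Prod.mk.injEq] at h
      exact hw.2 h.1.symm
    · apply mk_uxy_ne; simp
    · apply mk_uxy_ne; simp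
    · rw [hmul]; apply mk_uxy_ne; simp

theorem nu_psl34 (hF : Fintype.card F = 4) : nu (Nat.card (ProjectiveSpecialLinearGroup (Fin 3) F)) = 6 := by
  have h := Cfsg.Agent.S0243.result hF 3 (by norm_num)
  have h2 : Nat.card (ProjectiveSpecialLinearGroup (Fin 3) F) = 20160 := by
    simp [Fin.prod_univ_three] at h
    omega
  rw [h2]
  have : (20160 : ℕ) = 2 ^ 6 * 315 := by norm_num
  rw [this, nu_mul (by norm_num) (by norm_num), nu_two_pow, nu_odd (by decide)]

end PSL

end Cfsg.Agent.H466.RT
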