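import Cfsg.Agent.H466.RT.SLThree
import Cfsg.Agent.OddHalf.LongSL.Rk

/-!
# `SL(2, 3)` in the groups of Lie type of rank at least 2 in odd characteristic
-/

set_option autoImplicit false

namespace Cfsg.Agent.H466.RT

open Cfsg.Agent.OddHalf.LieOddFam Cfsg.Agent.OddHalf.LongSL

universe u

/-- the groups of Lie type of rank at least 2 in odd characteristic contain `SL(2, 3)`. -/
theorem hasSL_rk {X : Type u} [Group X] {q : ℕ} (hq : OddPow q) (h : Rk X q) : HasSL X := by
  obtain ⟨j, J, -, -, -, -, F, _, _, hF, ho, ⟨e⟩⟩ := hasLong_of_rk hq h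
  have h2 : (2 : F) ≠ 0 := by
    intro h2
    have h3 : CharP F 2 := CharTwo.of_one_ne_zero_of_two_eq_zero one_ne_zero h2
    obtain ⟨n, -, hn⟩ := FiniteField.card F 2
    rw [hF] at hn
    rw [hn] at ho
    have h4 : (n : ℕ) ≠ 0 := n.ne_zero
    obtain ⟨m, hm⟩ := Nat.exists_eq_succ_of_ne_zero h4
    rw [hm, pow_succ, Nat.odd_iff] at ho
    omega
  have h3 : HasSL J := (hasSL_sl_two h2).map (f := e.symm.toMonoidHom) e.symm.injective
  exact h3.map (f := J.subtype) J.subtype_injective

end Cfsg.Agent.H466.RT
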