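import Cfsg.Agent.H466.RT.Kill

/-!
# Pairs: one class of involutions

`Pair.false_of_oneClass`: no pair `M`, `K` such that `K / Z(K)` has one class of involutions, 2-rank at
least 3, involution centralizers 2-groups, and `|Z(K)| < |K / Z(K)|_2`.
-/

set_option autoImplicit false

namespace Cfsg.Agent.H466.RT

open Subgroup Cfsg

/-- `r, s, t` generate an elementary abelian group of order 8. -/
structure Three {S : Type*} [Group S] (r s t : S) : Prop where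
  rr : r * r = 1
  ss : s * s = 1
  tt : t * t = 1
  rs : r * s = s * r
  rt : r * t = t * r
  st : s * t = t * s
  r1 : r ≠ 1
  s1 : s ≠ 1
  t1 : t ≠ 1
  hrs : r ≠ s
  hrt : r ≠ t
  hst : s ≠ t
  hrst : r * s ≠ t

/-- one class of involutions -/
def OneCl (S : Type*) [Group S] : Prop :=
  ∀ s t : S, s * s = 1 → s ≠ 1 → t * t = 1 → t ≠ 1 → IsConj s t

section Lift

variable {L : Type*} [Group L]

local notation "Z" => center L

theorem mk_eq_one {x : L} : (x : L ⧸ center L) = 1 ↔ x ∈ center L := QuotientGroup.eq_one_iff x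

/-- If all involutions of `L / Z(L)` are conjugate and there is an elementary abelian subgroup of order 8
then some involution of `L` is not central. -/
theorem exists_noncentral (hcl : OneCl (L ⧸ center L)) {r s t : L ⧸ center L} (h : Three r s t) :
    ∃ y : L, y * y = 1 ∧ y ∉ center L := by
  obtain ⟨a, rfl⟩ := QuotientGroup.mk_surjective r
  obtain ⟨b, rfl⟩ := QuotientGroup.mk_surjective s
  obtain ⟨d, rfl⟩ := QuotientGroup.mk_surjective t
  -- the squares of the lifts of involutions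
  have hq : ∀ y : L, y * y ∈ Z → y ∉ Z → ∃ w ∈ Z, y * y = a * a * (w * w) := by
    intro y hyy hy
    have h1 : (y : L ⧸ center L) * y = 1 := by rw [← QuotientGroup.mk_mul, mk_eq_one]; exact hyy
    have h2 : (y : L ⧸ center L) ≠ 1 := fun h => hy (mk_eq_one.1 h)
    obtain ⟨g, hg⟩ := isConj_iff.1 (hcl _ _ h.rr h.r1 h1 h2)
    obtain ⟨g, rfl⟩ := QuotientGroup.mk_surjective g
    have h3 : (g * a * g⁻¹)⁻¹ * y ∈ Z := by
      rw [← mk_eq_one, QuotientGroup.mk_mul, QuotientGroup.mk_inv, QuotientGroup.mk_mul,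
        QuotientGroup.mk_mul, QuotientGroup.mk_inv, hg, inv_mul_cancel]
    refine ⟨_, h3, ?_⟩
    set w := (g * a * g⁻¹)⁻¹ * y with hw
    have hyw : y = g * a * g⁻¹ * w := by rw [hw]; group
    have haa : a * a ∈ Z := by
      rw [← mk_eq_one, QuotientGroup.mk_mul]
      exact h.rr
    have hwc : ∀ x, x * w = w * x := fun x => mem_center_iff.1 h3 x
    calc y * y = g * a * g⁻¹ * (w * (g * a * g⁻¹)) * w := by rw [hyw]; group
      _ = g * (a * a) * g⁻¹ * (w * w) := by rw [← hwc]; group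
      _ = a * a * (w * w) := by rw [mem_center_iff.1 haa g, mul_inv_cancel_right]
  have haa : a * a ∈ Z := by rw [← mk_eq_one, QuotientGroup.mk_mul]; exact h.rr
  have hbb : b * b ∈ Z := by rw [← mk_eq_one, QuotientGroup.mk_mul]; exact h.ss
  have hdd : d * d ∈ Z := by rw [← mk_eq_one, QuotientGroup.mk_mul]; exact h.tt
  -- commutators
  have hkap : ∀ x y : L, x * x ∈ Z → y * y ∈ Z → x ∉ Z → y ∉ Z → y * x * (x * y)⁻¹ ∈ Z → x * y ∉ Z →
      ∃ v ∈ Z, y * x * (x * y)⁻¹ = (a * a)⁻¹ * (v * v) := by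
    intro x y hxx hyy hx hy hc hxy
    obtain ⟨w₁, hw₁, h1⟩ := hq x hxx hx
    obtain ⟨w₂, hw₂, h2⟩ := hq y hyy hy
    set k := y * x * (x * y)⁻¹ with hk
    have hyx : y * x = k * (x * y) := by rw [hk]; group
    have hkc : ∀ g, g * k = k * g := fun g => mem_center_iff.1 hc g
    have h3 : x * y * (x * y) = k * (x * x) * (y * y) := by
      calc x * y * (x * y) = x * (y * x) * y := by group
        _ = (x * k) * x * y * y := by rw [hyx]; group
        _ = k * (x * x) * (y * y) := by rw [hkc]; group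
    have h4 : x * y * (x * y) ∈ Z := by
      rw [h3]
      exact (center L).mul_mem ((center L).mul_mem hc hxx) hyy
    obtain ⟨w₃, hw₃, h5⟩ := hq (x * y) h4 hxy
    refine ⟨w₃ * (w₁ * w₂)⁻¹, (center L).mul_mem hw₃ ((center L).inv_mem ((center L).mul_mem hw₁ hw₂)), ?_⟩
    have c1 : ∀ g, g * w₁ = w₁ * g := fun g => mem_center_iff.1 hw₁ g
    have c2 : ∀ g, g * w₂ = w₂ * g := fun g => mem_center_iff.1 hw₂ g
    have c3 : ∀ g, g * w₃ = w₃ * g := fun g => mem_center_iff.1 hw₃ g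
    have ca : ∀ g, g * (a * a) = (a * a) * g := fun g => mem_center_iff.1 haa g
    rw [h3, h1, h2] at h5
    -- work in the commutative group `Z`
    have key : ∀ A W₁ W₂ W₃ K : center L, K * (A * (W₁ * W₁)) * (A * (W₂ * W₂)) = A * (W₃ * W₃) →
        K = A⁻¹ * ((W₃ * (W₁ * W₂)⁻¹) * (W₃ * (W₁ * W₂)⁻¹)) := by
      intro A W₁ W₂ W₃ K hK
      have h6 : K = A * (W₃ * W₃) * (A * (W₂ * W₂))⁻¹ * (A * (W₁ * W₁))⁻¹ := by rw [← hK]; group
      rw [h6]
      simp only [mul_inv_rev]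
      have e1 : ∀ x y : center L, x * y = y * x := fun x y => mul_comm' x y
      calc A * (W₃ * W₃) * (W₂⁻¹ * W₂⁻¹ * A⁻¹) * (W₁⁻¹ * W₁⁻¹ * A⁻¹)
          = A * (W₃ * W₃) * ((W₂⁻¹ * W₂⁻¹) * A⁻¹) * ((W₁⁻¹ * W₁⁻¹) * A⁻¹) := by group
        _ = A * (W₃ * W₃) * (A⁻¹ * (W₂⁻¹ * W₂⁻¹)) * (A⁻¹ * (W₁⁻¹ * W₁⁻¹)) := by
            rw [e1 (W₂⁻¹ * W₂⁻¹) A⁻¹, e1 (W₁⁻¹ * W₁⁻¹) A⁻¹]
        _ = (A * (W₃ * W₃) * A⁻¹) * ((W₂⁻¹ * W₂⁻¹) * A⁻¹) * (W₁⁻¹ * W₁⁻¹) := by group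
        _ = ((W₃ * W₃) * A * A⁻¹) * (A⁻¹ * (W₂⁻¹ * W₂⁻¹)) * (W₁⁻¹ * W₁⁻¹) := by
            rw [e1 A (W₃ * W₃), e1 (W₂⁻¹ * W₂⁻¹) A⁻¹]
        _ = ((W₃ * W₃) * A⁻¹) * (W₂⁻¹ * W₂⁻¹) * (W₁⁻¹ * W₁⁻¹) := by group
        _ = (A⁻¹ * (W₃ * W₃)) * (W₂⁻¹ * W₂⁻¹) * (W₁⁻¹ * W₁⁻¹) := by rw [e1 (W₃ * W₃) A⁻¹]
        _ = A⁻¹ * W₃ * (W₃ * W₂⁻¹) * (W₂⁻¹ * W₁⁻¹) * W₁⁻¹ := by group
        _ = A⁻¹ * W₃ * (W₂⁻¹ * W₃) * (W₁⁻¹ * W₂⁻¹) * W₁⁻¹ := by rw [e1 W₃ W₂⁻¹, e1 W₂⁻¹ W₁⁻¹]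
        _ = A⁻¹ * (W₃ * W₂⁻¹ * (W₃ * W₁⁻¹) * (W₂⁻¹ * W₁⁻¹)) := by group
        _ = A⁻¹ * (W₃ * W₂⁻¹ * (W₁⁻¹ * W₃) * (W₂⁻¹ * W₁⁻¹)) := by rw [e1 W₃ W₁⁻¹]
        _ = A⁻¹ * (W₃ * (W₂⁻¹ * W₁⁻¹) * (W₃ * (W₂⁻¹ * W₁⁻¹))) := by group
    have h6 := key ⟨a * a, haa⟩ ⟨w₁, hw₁⟩ ⟨w₂, hw₂⟩ ⟨w₃, hw₃⟩ ⟨k, hc⟩ (Subtype.ext (by
      change k * (a * a * (w₁ * w₁)) * (a * a * (w₂ * w₂)) = a * a * (w₃ * w₃)
      exact h5))
    exact congrArg Subtype.val h6
  have hne : ∀ {x y : L}, (x : L ⧸ center L) ≠ y → (y : L ⧸ center L) * y = 1 → x * y ∉ Z := by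
    intro x y hxy hy hmem
    rw [← mk_eq_one, QuotientGroup.mk_mul] at hmem
    apply hxy
    rw [eq_inv_of_mul_eq_one_left hmem]
    exact inv_eq_of_mul_eq_one_left hy
  have hcm : ∀ {x y : L}, (x : L ⧸ center L) * y = y * x → y * x * (x * y)⁻¹ ∈ Z := by
    intro x y hxy
    rw [← mk_eq_one, QuotientGroup.mk_mul, QuotientGroup.mk_inv, QuotientGroup.mk_mul,
      QuotientGroup.mk_mul, hxy, mul_inv_cancel]
  have han : a ∉ Z := fun h' => h.r1 (mk_eq_one.2 h')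
  have hbn : b ∉ Z := fun h' => h.s1 (mk_eq_one.2 h')
  have hdn : d ∉ Z := fun h' => h.t1 (mk_eq_one.2 h')
  -- the three commutators with `d`
  obtain ⟨v₁, hv₁, k1⟩ := hkap a d haa hdd han hdn (hcm h.rt) (hne h.hrt h.tt)
  obtain ⟨v₂, hv₂, k2⟩ := hkap b d hbb hdd hbn hdn (hcm h.st) (hne h.hst h.tt)
  have habn : a * b ∉ Z := hne h.hrs h.ss
  have habab : a * b * (a * b) ∈ Z := by
    rw [← mk_eq_one, QuotientGroup.mk_mul, QuotientGroup.mk_mul]
    have h1 := h.rs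
    calc (a : L ⧸ center L) * b * (a * b) = a * ((b : L ⧸ center L) * a) * b := by group
      _ = (a * a) * ((b : L ⧸ center L) * b) := by rw [← h1]; group
      _ = 1 := by rw [h.rr, h.ss, mul_one]
  have habd : ((a * b : L) : L ⧸ center L) * d = d * ((a * b : L) : L ⧸ center L) := by
    rw [QuotientGroup.mk_mul]
    calc (a : L ⧸ center L) * b * d = a * ((b : L ⧸ center L) * d) := by group
      _ = (a * (d : L ⧸ center L)) * b := by rw [h.st]; group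
      _ = d * ((a : L ⧸ center L) * b) := by rw [h.rt]; group
  have habdn : ((a * b : L) : L ⧸ center L) ≠ d := by
    rw [QuotientGroup.mk_mul]
    exact h.hrst
  obtain ⟨v₃, hv₃, k3⟩ := hkap (a * b) d habab hdd habn hdn (hcm habd) (hne habdn h.tt)
  have k4 : d * (a * b) * (a * b * d)⁻¹ = (d * a * (a * d)⁻¹) * (d * b * (b * d)⁻¹) := by
    have h1 : ∀ g, g * (d * b * (b * d)⁻¹) = (d * b * (b * d)⁻¹) * g := fun g => mem_center_iff.1 (hcm h.st) g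
    calc d * (a * b) * (a * b * d)⁻¹ = (d * a * (a * d)⁻¹) * (a * (d * b * (b * d)⁻¹)) * a⁻¹ := by group
      _ = (d * a * (a * d)⁻¹) * (d * b * (b * d)⁻¹) := by rw [h1]; group
  rw [k1, k2, k3] at k4
  have key2 : ∀ A V₁ V₂ V₃ : center L, A⁻¹ * (V₃ * V₃) = A⁻¹ * (V₁ * V₁) * (A⁻¹ * (V₂ * V₂)) →
      A = (V₁ * V₂ * V₃⁻¹) * (V₁ * V₂ * V₃⁻¹) := by
    intro A V₁ V₂ V₃ hA
    have e1 : ∀ x y : center L, x * y = y * x := fun x y => mul_comm' x y
    have h1 : V₃ * V₃ = (V₁ * V₁) * A⁻¹ * (V₂ * V₂) := by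
      have : A⁻¹ * (V₃ * V₃) = A⁻¹ * ((V₁ * V₁) * A⁻¹ * (V₂ * V₂)) := by rw [hA]; group
      exact mul_left_cancel this
    have h2 : A * (V₃ * V₃) = (V₁ * V₁) * (V₂ * V₂) := by
      rw [h1, e1 (V₁ * V₁) A⁻¹]; group
    have h3 : A = (V₁ * V₁) * (V₂ * V₂) * (V₃ * V₃)⁻¹ := by rw [← h2]; group
    calc A = (V₁ * V₁) * (V₂ * V₂) * (V₃ * V₃)⁻¹ := h3
      _ = V₁ * (V₁ * V₂) * (V₂ * V₃⁻¹) * V₃⁻¹ := by group
      _ = V₁ * (V₂ * V₁) * (V₃⁻¹ * V₂) * V₃⁻¹ := by rw [e1 V₁ V₂, e1 V₂ V₃⁻¹]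
      _ = V₁ * V₂ * (V₁ * V₃⁻¹) * (V₂ * V₃⁻¹) := by group
      _ = V₁ * V₂ * (V₃⁻¹ * V₁) * (V₂ * V₃⁻¹) := by rw [e1 V₁ V₃⁻¹]
      _ = _ := by group
  have k5 := key2 ⟨a * a, haa⟩ ⟨v₁, hv₁⟩ ⟨v₂, hv₂⟩ ⟨v₃, hv₃⟩ (Subtype.ext (by
    change (a * a)⁻¹ * (v₃ * v₃) = (a * a)⁻¹ * (v₁ * v₁) * ((a * a)⁻¹ * (v₂ * v₂))
    exact k4))
  have k6 : a * a = (v₁ * v₂ * v₃⁻¹) * (v₁ * v₂ * v₃⁻¹) := congrArg Subtype.val k5
  set v := v₁ * v₂ * v₃⁻¹ with hv
  have hvZ : v ∈ Z := (center L).mul_mem ((center L).mul_mem hv₁ hv₂) ((center L).inv_mem hv₃)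
  have hvi : ∀ g, g * v⁻¹ = v⁻¹ * g := fun g => mem_center_iff.1 ((center L).inv_mem hvZ) g
  refine ⟨a * v⁻¹, ?_, ?_⟩
  · calc a * v⁻¹ * (a * v⁻¹) = a * (v⁻¹ * a) * v⁻¹ := by group
      _ = a * a * (v * v)⁻¹ := by rw [← hvi]; group
      _ = 1 := by rw [k6, mul_inv_cancel]
  · intro h1
    apply han
    have h2 := (center L).mul_mem h1 hvZ
    rwa [inv_mul_cancel_right] at h2

end Lift

namespace Pair

variable {M : Type*} [Group M] [Finite M] {K : Subgroup M} {c : ℕ}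

/-- **one class of involutions** -/
theorem false_of_oneClass (h : Pair M K c) (hcl : OneCl (K ⧸ center K))
    (hcent : ∀ s : K ⧸ center K, s * s = 1 → s ≠ 1 → IsPGroup 2 (centralizer ({s} : Set (K ⧸ center K))))
    (hthree : ∃ r s t : K ⧸ center K, Three r s t)
    (hcard : Nat.card (center K) < 2 ^ nu (Nat.card (K ⧸ center K))) : False := by
  have : Fact (Nat.Prime 2) := ⟨Nat.prime_two⟩
  have := Zm_normal h.nrm
  have hn := h.nrm
  obtain ⟨r, s, t, h3⟩ := hthree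
  have ho : orderOf r = 2 := orderOf_eq_prime (by rw [pow_two, h3.rr]) h3.r1
  have h2 : 2 ∣ Nat.card (K ⧸ center K) := by
    rw [← ho]
    exact orderOf_dvd_natCard r
  have hsimple : IsSimpleGroup (K ⧸ center K) := h.qs.2
  -- real element of odd order
  have hO : ∀ N : Subgroup (K ⧸ center K), N.Normal → IsPGroup 2 N → r ∉ N := by
    intro N hN hN2 hr
    rcases hsimple.eq_bot_or_eq_top_of_normal N hN with h4 | h4
    · rw [h4, mem_bot] at hr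
      exact h3.r1 hr
    · rw [h4] at hN2
      have h5 : IsPGroup 2 (K ⧸ center K) := hN2.of_equiv topEquiv
      have hnt : Nontrivial (K ⧸ center K) := ⟨r, 1, h3.r1⟩
      have h6 := h5.bot_lt_center
      rcases hsimple.eq_bot_or_eq_top_of_normal (center (K ⧸ center K)) inferInstance with h7 | h7
      · exact absurd h7 h6.ne'
      · -- abelian and simple
        have hab : ∀ a b : K ⧸ center K, a * b = b * a := by
          intro a b
          have : a ∈ center (K ⧸ center K) := by rw [h7]; exact mem_top a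
          exact (mem_center_iff.1 this b).symm
        have h8 : (zpowers r).Normal := by
          constructor
          intro n hn g
          rw [hab g n, mul_inv_cancel_right]
          exact hn
        rcases hsimple.eq_bot_or_eq_top_of_normal (zpowers r) h8 with h9 | h9
        · rw [zpowers_eq_bot] at h9
          exact h3.r1 h9
        · have h10 : s ∈ zpowers r := by rw [h9]; exact mem_top s
          obtain ⟨k, hk⟩ := mem_zpowers_iff.1 h10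
          rcases Int.even_or_odd k with ⟨m, hm⟩ | ⟨m, hm⟩
          · apply h3.s1
            rw [← hk, hm, ← two_mul, zpow_mul, zpow_two, h3.rr, one_zpow]
          · apply h3.hrs
            rw [← hk, hm, zpow_add, zpow_mul, zpow_one]
            have : r ^ (2 : ℤ) = 1 := by rw [zpow_two, h3.rr]
            rw [this, one_zpow, one_mul]
  obtain ⟨q, hq1, hqo, hqr⟩ := Cfsg.Agent.S0200.result r ho hO
  obtain ⟨x, hxr, hxo, hx1, hxc⟩ := exists_real_odd h.z2 ⟨r, hqr⟩ hqo hq1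
  -- the centralizer of `q` has odd order
  have hqodd : nu (Nat.card (centralizer ({q} : Set (K ⧸ center K)))) = 0 := by
    apply Nat.factorization_eq_zero_of_not_dvd
    intro h4
    obtain ⟨u, hu⟩ := exists_prime_orderOf_dvd_card' (G := centralizer ({q} : Set (K ⧸ center K))) 2 h4
    have hu2 : (u : K ⧸ center K) * u = 1 := by
      have h5 : u ^ 2 = 1 := by rw [← hu, pow_orderOf_eq_one]
      have h6 := congrArg Subtype.val h5
      rw [coe_pow, pow_two] at h6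
      exact h6
    have hu1 : (u : K ⧸ center K) ≠ 1 := by
      intro h5
      have h6 : u = 1 := Subtype.ext h5
      rw [h6, orderOf_one] at hu
      omega
    have h7 := hcent u hu2 hu1
    have h8 : q ∈ centralizer ({(u : K ⧸ center K)} : Set (K ⧸ center K)) := by
      rw [mem_cent]
      have h9 := mem_cent.1 u.2
      rw [mul_inv_eq_iff_eq_mul] at h9 ⊢
      exact h9.symm
    exact hq1 (isPGroup_of_le_odd_eq_one h7 h8 hqo)
  have h4 := h.req_real hxr hxo hx1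
  have h5 := nu_normal_cent (K := K) x
  have h6 := nu_card_quot (center K)
  -- a noncentral involution which is almost central in a Sylow 2-subgroup
  obtain ⟨P, hP2, hPc, y, hyK, hyZ, hyy, hyP⟩ := h.exists_y h2
  obtain ⟨y₀, hy₀, hy₀Z⟩ := exists_noncentral hcl h3
  have hex : ∃ y₁ ∈ K, y₁ * y₁ = 1 ∧ y₁ ∉ Zm K ∧ ∀ p ∈ P, ∃ w ∈ Zm K, p * y₁ * p⁻¹ = y₁ * w := by
    have h7 : ((y₀ : K) : K ⧸ center K) * y₀ = 1 := by
      rw [← QuotientGroup.mk_mul, hy₀, QuotientGroup.mk_one]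
    have h8 : ((y₀ : K) : K ⧸ center K) ≠ 1 := fun h' => hy₀Z (mk_eq_one.1 h')
    have h9 : (((⟨y, hyK⟩ : K)) : K ⧸ center K) * ((⟨y, hyK⟩ : K) : K ⧸ center K) = 1 := by
      rw [← QuotientGroup.mk_mul, mk_eq_one]
      exact (mem_Zm.1 hyy).2
    have h10 : (((⟨y, hyK⟩ : K)) : K ⧸ center K) ≠ 1 := fun h' => hyZ (mem_Zm.2 ⟨hyK, mk_eq_one.1 h'⟩)
    obtain ⟨g, hg⟩ := isConj_iff.1 (hcl _ _ h7 h8 h9 h10)
    obtain ⟨g, rfl⟩ := QuotientGroup.mk_surjective g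
    have h11 : (⟨y, hyK⟩ : K)⁻¹ * (g * y₀ * g⁻¹) ∈ center K := by
      rw [← QuotientGroup.eq, ← hg]
      rfl
    obtain ⟨w, hw, hyw⟩ : ∃ w ∈ Zm K, ((g * y₀ * g⁻¹ : K) : M) = y * w :=
      ⟨_, ⟨_, h11, rfl⟩, by
        change ((g * y₀ * g⁻¹ : K) : M) = y * (y⁻¹ * ((g * y₀ * g⁻¹ : K) : M))
        group⟩
    refine ⟨((g * y₀ * g⁻¹ : K) : M), (g * y₀ * g⁻¹).2, ?_, ?_, ?_⟩
    · have : (g * y₀ * g⁻¹) * (g * y₀ * g⁻¹) = 1 := by
        calc (g * y₀ * g⁻¹) * (g * y₀ * g⁻¹) = g * (y₀ * y₀) * g⁻¹ := by group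
          _ = 1 := by rw [hy₀]; group
      exact congrArg Subtype.val this
    · rw [hyw]
      intro h12
      apply hyZ
      have := (Zm K).mul_mem h12 ((Zm K).inv_mem hw)
      rwa [mul_inv_cancel_right] at this
    · intro p hp
      obtain ⟨w', hw', hpw⟩ := hyP p hp
      refine ⟨w' * (w⁻¹ * (p * w * p⁻¹)), (Zm K).mul_mem hw' ((Zm K).mul_mem ((Zm K).inv_mem hw)
        ((Zm_normal h.nrm).conj_mem w hw p)), ?_⟩
      rw [hyw]
      have h12 : w * w' = w' * w := by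
        obtain ⟨hwK, hwc⟩ := mem_Zm.1 hw
        exact (congrArg Subtype.val (mem_center_iff.1 hwc ⟨w', Zm_le hw'⟩)).symm
      calc p * (y * w) * p⁻¹ = (p * y * p⁻¹) * (p * w * p⁻¹) := by group
        _ = y * (w' * w) * (w⁻¹ * (p * w * p⁻¹)) := by rw [hpw]; group
        _ = y * w * (w' * (w⁻¹ * (p * w * p⁻¹))) := by rw [← h12]; group
  obtain ⟨y₁, hy₁K, hy₁y, hy₁Z, hy₁P⟩ := hex
  have hy₁n : ∃ k ∈ K, k * y₁ ≠ y₁ * k := by
    by_contra hcon
    push Not at hcon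
    apply hy₁Z
    refine mem_Zm.2 ⟨hy₁K, ?_⟩
    rw [mem_center_iff]
    intro k
    exact Subtype.ext (hcon k k.2)
  have h7 := h.req y₁ hy₁K (Real'.of_sq hy₁y) hy₁n
  -- `|P : C_P(y₁)| ≤ |Z|`
  let C : Subgroup P := (centralizer ({y₁} : Set M)).subgroupOf P
  have hidx : C.index ≤ Nat.card (center K) := by
    rw [← card_Zm (K := K)]
    let f : P ⧸ C → Zm K := Quotient.lift (fun p : P => (⟨y₁⁻¹ * ((p : M) * y₁ * (p : M)⁻¹), by
        obtain ⟨w, hw, hpw⟩ := hy₁P p p.2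
        rw [hpw]
        simpa using hw⟩ : Zm K)) (by
      intro p p' hpp
      apply Subtype.ext
      have h8 : p⁻¹ * p' ∈ C := QuotientGroup.leftRel_apply.1 hpp
      have h9 := mem_cent.1 (mem_subgroupOf.1 h8)
      change (((p⁻¹ * p' : P) : M)) * y₁ * (((p⁻¹ * p' : P) : M))⁻¹ = y₁ at h9
      change y₁⁻¹ * ((p : M) * y₁ * (p : M)⁻¹) = y₁⁻¹ * ((p' : M) * y₁ * (p' : M)⁻¹)
      rw [coe_mul, coe_inv] at h9
      congr 1
      calc (p : M) * y₁ * (p : M)⁻¹ = (p : M) * ((p : M)⁻¹ * p' * y₁ * ((p : M)⁻¹ * p')⁻¹) * (p : M)⁻¹ := by rw [h9]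
        _ = _ := by group)
    apply Nat.card_le_card_of_injective f
    intro a b hab
    induction a using QuotientGroup.induction_on with | H p => ?_
    induction b using QuotientGroup.induction_on with | H p' => ?_
    have h8 : y₁⁻¹ * ((p : M) * y₁ * (p : M)⁻¹) = y₁⁻¹ * ((p' : M) * y₁ * (p' : M)⁻¹) := congrArg Subtype.val hab
    rw [QuotientGroup.eq, mem_subgroupOf, mem_cent, coe_mul, coe_inv]
    have h9 := mul_left_cancel h8
    calc (p : M)⁻¹ * p' * y₁ * ((p : M)⁻¹ * p')⁻¹ = (p : M)⁻¹ * ((p' : M) * y₁ * (p' : M)⁻¹) * p := by group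
      _ = y₁ := by rw [← h9]; group
  have h8 := card_mul_index C
  have h9 : nu (Nat.card C) ≤ c := by
    have h10 : Nat.card C = Nat.card (C.map P.subtype) := (card_map_of_injective P.subtype_injective).symm
    rw [h10, ← h7]
    apply nu_card_le
    rintro _ ⟨p, hp, rfl⟩
    exact mem_subgroupOf.1 hp
  have hi0 : C.index ≠ 0 := index_ne_zero_of_finite
  have h10 : nu C.index < nu (Nat.card (K ⧸ center K)) := by
    have h11 : 2 ^ nu C.index ≤ C.index := Nat.le_of_dvd (Nat.pos_of_ne_zero hi0) (dvd_of_le_nu hi0 le_rfl)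
    exact (Nat.pow_lt_pow_iff_right (by norm_num : 1 < 2)).1 (by omega)
  have h11 := congrArg nu h8
  rw [nu_mul (card_ne _) hi0] at h11
  omega

end Pair

end Cfsg.Agent.H466.RT
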