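import Cfsg.Agent.H466.RT.RankOne

/-!
# `SL(2, q)`, `q ≥ 5` odd
-/

set_option autoImplicit false

namespace Cfsg.Agent.H466.RT

open Subgroup Cfsg Matrix

variable {F : Type*} [Field F] [Fintype F]

/-- the matrix -/
def mt (A : SpecialLinearGroup (Fin 2) F) : Matrix (Fin 2) (Fin 2) F := A.val

omit [Fintype F] in
theorem mt_mul (A B : SpecialLinearGroup (Fin 2) F) : mt (A * B) = mt A * mt B := rfl

omit [Fintype F] in
theorem mt_one : mt (1 : SpecialLinearGroup (Fin 2) F) = 1 := rfl

omit [Fintype F] in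
theorem mt_neg_one : mt (-1 : SpecialLinearGroup (Fin 2) F) = -1 := rfl

omit [Fintype F] in
theorem mt_ext {A B : SpecialLinearGroup (Fin 2) F} (h : mt A = mt B) : A = B := Subtype.ext h

omit [Fintype F] in
theorem mt_mul_apply (A B : SpecialLinearGroup (Fin 2) F) (i j : Fin 2) :
    mt (A * B) i j = mt A i 0 * mt B 0 j + mt A i 1 * mt B 1 j := by
  rw [mt_mul, Matrix.mul_apply, Fin.sum_univ_two]

omit [Fintype F] in
/-- if no element commuting with `x` has square `-1` then 4 does not divide the order of the centralizer -/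
theorem nu_le_one [Finite F] (h2 : (2 : F) ≠ 0) {x : SpecialLinearGroup (Fin 2) F}
    (h : ∀ z, z * x = x * z → z * z ≠ -1) : nu (Nat.card (centralizer ({x} : Set (SpecialLinearGroup (Fin 2) F)))) ≤ 1 := by
  by_contra hcon
  have h3 : 4 ∣ Nat.card (centralizer ({x} : Set (SpecialLinearGroup (Fin 2) F))) := by
    have h4 := dvd_of_le_nu (n := Nat.card (centralizer ({x} : Set (SpecialLinearGroup (Fin 2) F))))
      (k := 2) (card_ne _) (by omega)
    simpa using h4
  obtain ⟨a, -, z, hz, ha1, haa, -, hz1, hza, hzz⟩ := Cfsg.Agent.StdAlt.PermTypes.exists_pair_of_four_dvd _ h3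
  have h4 := Cfsg.Agent.ClassicalGeometry.SLTwoFour.eq_one_or_neg_one_of_mul_self h2 a haa
  have h5 : a = -1 := h4.resolve_left ha1
  rcases hzz with h6 | h6
  · rcases Cfsg.Agent.ClassicalGeometry.SLTwoFour.eq_one_or_neg_one_of_mul_self h2 z h6 with h7 | h7
    · exact hz1 h7
    · exact hza (h7.trans h5.symm)
  · rw [h5] at h6
    refine h z ?_ h6
    have := mem_cent.1 hz
    rw [mul_inv_eq_iff_eq_mul] at this
    exact this

theorem rOne_sl (hodd : Odd (Fintype.card F)) (h5 : 5 ≤ Fintype.card F) : ROne (SpecialLinearGroup (Fin 2) F) := by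
  classical
  have h2 : (2 : F) ≠ 0 := by
    intro h2
    have h3 : CharP F 2 := CharTwo.of_one_ne_zero_of_two_eq_zero one_ne_zero h2
    obtain ⟨n, -, hn⟩ := FiniteField.card F 2
    rw [hn] at hodd
    obtain ⟨m, hm⟩ := Nat.exists_eq_succ_of_ne_zero n.ne_zero
    rw [hm, pow_succ, Nat.odd_iff] at hodd
    omega
  have hinv : ∀ x : SpecialLinearGroup (Fin 2) F, x * x = 1 → x ∈ center (SpecialLinearGroup (Fin 2) F) := by
    intro x hx
    rw [Cfsg.Agent.ClassicalGeometry.PSL2Basic.mem_center_SL2_iff]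
    exact Cfsg.Agent.ClassicalGeometry.SLTwoFour.eq_one_or_neg_one_of_mul_self h2 x hx
  have hnu : 3 ≤ nu (Nat.card (SpecialLinearGroup (Fin 2) F)) := by
    have h3 : 2 ^ 3 ∣ Nat.card (SpecialLinearGroup (Fin 2) F) := by
      rw [Cfsg.Agent.ClassicalGeometry.PSL2Basic.card_SL2]
      apply Dvd.dvd.mul_left
      obtain ⟨m, hm⟩ := hodd
      rw [hm]
      have h4 : (2 * m + 1) ^ 2 - 1 = 4 * (m * (m + 1)) := by
        have : (2 * m + 1) ^ 2 = 4 * (m * (m + 1)) + 1 := by ring
        omega
      rw [h4]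
      have h5 : 2 ∣ m * (m + 1) := (Nat.even_mul_succ_self m).two_dvd
      obtain ⟨k, hk⟩ := h5
      exact ⟨k, by rw [hk]; ring⟩
    exact (Nat.Prime.pow_dvd_iff_le_factorization Nat.prime_two Nat.card_pos.ne').1 h3
  refine ⟨Cfsg.Agent.ClassicalGeometry.PSL2Basic.card_center_SL2_odd h2, hinv, (hasSL_sl_two h2).hasQ, ?_⟩
  by_cases hm : Fintype.card F % 4 = 3
  · -- torus element
    obtain ⟨a, ha⟩ : ∃ a : F, a ∉ ({0, 1, -1} : Finset F) := by
      by_contra hcon
      push Not at hcon
      have h1 : (Finset.univ : Finset F) ⊆ {0, 1, -1} := fun x _ => hcon x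
      have h3 := Finset.card_le_card h1
      rw [Finset.card_univ] at h3
      have h4 : ({0, 1, -1} : Finset F).card ≤ 3 := Finset.card_le_three
      omega
    simp only [Finset.mem_insert, Finset.mem_singleton, not_or] at ha
    obtain ⟨ha0, ha1, ham⟩ := ha
    have hns : ∀ b : F, b * b ≠ -1 := by
      intro b hb
      have := FiniteField.isSquare_neg_one_iff (F := F)
      exact (this.1 ⟨b, hb.symm⟩) hm
    have hb1 : a ^ 2 ≠ 1 := by
      intro h
      have h3 : (a - 1) * (a + 1) = 0 := by linear_combination h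
      rcases mul_eq_zero.1 h3 with h4 | h4
      · exact ha1 (by linear_combination h4)
      · exact ham (by linear_combination h4)
    have hbb : a ^ 2 * a ^ 2 ≠ 1 := by
      intro h
      have h3 : (a ^ 2 - 1) * (a ^ 2 + 1) = 0 := by linear_combination h
      rcases mul_eq_zero.1 h3 with h4 | h4
      · exact hb1 (by linear_combination h4)
      · exact hns a (by linear_combination h4)
    let x : SpecialLinearGroup (Fin 2) F := ⟨!![a ^ 2, 0; 0, (a ^ 2)⁻¹], by
      rw [det_fin_two_of]; field_simp; ring⟩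
    let t : SpecialLinearGroup (Fin 2) F := ⟨!![0, 1; -1, 0], by rw [det_fin_two_of]; ring⟩
    let x' : SpecialLinearGroup (Fin 2) F := ⟨!![(a ^ 2)⁻¹, 0; 0, a ^ 2], by
      rw [det_fin_two_of]; field_simp; ring⟩
    have hxx' : x * x' = 1 := by
      have h : !![a ^ 2, 0; 0, (a ^ 2)⁻¹] * !![(a ^ 2)⁻¹, 0; 0, a ^ 2] = (1 : Matrix (Fin 2) (Fin 2) F) := by
        rw [mul_fin_two, one_fin_two]
        have ha2 : a ^ 2 ≠ 0 := pow_ne_zero 2 ha0
        congr 1
        ext r s
        fin_cases r <;> fin_cases s <;> simp [ha0]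
      exact Subtype.ext h
    have hxi : x⁻¹ = x' := inv_eq_of_mul_eq_one_right hxx'
    have hpow : ∀ n : ℕ, mt (x ^ n) = !![(a ^ 2) ^ n, 0; 0, ((a ^ 2)⁻¹) ^ n] := by
      intro n
      induction n with
      | zero => rw [pow_zero, pow_zero, pow_zero, mt_one, one_fin_two]
      | succ n ih =>
        rw [pow_succ, mt_mul, ih]
        change !![(a ^ 2) ^ n, 0; 0, ((a ^ 2)⁻¹) ^ n] * !![a ^ 2, 0; 0, (a ^ 2)⁻¹] = _
        rw [mul_fin_two]
        simp [pow_succ]
    have hcard : (a ^ 2) ^ ((Fintype.card F - 1) / 2) = 1 := by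
      rw [← pow_mul]
      have h3 : 2 * ((Fintype.card F - 1) / 2) = Fintype.card F - 1 := by omega
      rw [h3]
      exact FiniteField.pow_card_sub_one_eq_one a ha0
    refine ⟨x, ⟨t, ?_⟩, ?_, ?_, ?_⟩
    · rw [mul_inv_eq_iff_eq_mul, hxi]
      have h : !![(0 : F), 1; -1, 0] * !![a ^ 2, 0; 0, (a ^ 2)⁻¹] =
          !![(a ^ 2)⁻¹, 0; 0, a ^ 2] * !![(0 : F), 1; -1, 0] := by
        rw [mul_fin_two, mul_fin_two]
        simp
      exact Subtype.ext h
    · -- the order is odd
      have h3 : x ^ ((Fintype.card F - 1) / 2) = 1 := by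
        apply mt_ext
        rw [hpow, inv_pow, hcard, inv_one, mt_one, one_fin_two]
      have h4 : Odd ((Fintype.card F - 1) / 2) := by
        rw [Nat.odd_iff]
        omega
      exact Odd.of_dvd_nat h4 (orderOf_dvd_of_pow_eq_one h3)
    · intro h
      have h3 := congrArg (fun g : SpecialLinearGroup (Fin 2) F => mt g 0 0) h
      exact hb1 h3
    · have h3 : nu (Nat.card (centralizer ({x} : Set (SpecialLinearGroup (Fin 2) F)))) ≤ 1 := by
        apply nu_le_one h2
        intro z hz hzz
        have h01 := congrArg (fun g : SpecialLinearGroup (Fin 2) F => mt g 0 1) hz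
        have hz2 := congrArg (fun g : SpecialLinearGroup (Fin 2) F => mt g 0 0) hzz
        simp only [mt_mul_apply] at h01 hz2
        rw [mt_neg_one] at hz2
        have e00 : mt x 0 0 = a ^ 2 := rfl
        have e01 : mt x 0 1 = 0 := rfl
        have e11 : mt x 1 1 = (a ^ 2)⁻¹ := rfl
        rw [e00, e01, e11] at h01
        have ha2 : a ^ 2 ≠ 0 := pow_ne_zero 2 ha0
        have hz01 : mt z 0 1 = 0 := by
          have h4 : mt z 0 1 * (a ^ 2 * a ^ 2 - 1) = 0 := by
            have h5 : (a ^ 2)⁻¹ * a ^ 2 = 1 := inv_mul_cancel₀ ha2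
            linear_combination (-(a ^ 2)) * h01 + mt z 0 1 * h5
          rcases mul_eq_zero.1 h4 with h5 | h5
          · exact h5
          · exact absurd (by linear_combination h5) hbb
        rw [hz01] at hz2
        apply hns (mt z 0 0)
        have e : (-1 : Matrix (Fin 2) (Fin 2) F) 0 0 = -1 := by simp
        rw [e] at hz2
        linear_combination hz2
      omega
  · -- unipotent element
    obtain ⟨a, ha⟩ : ∃ a : F, a * a = -1 := by
      obtain ⟨a, ha⟩ := (FiniteField.isSquare_neg_one_iff (F := F)).2 hm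
      exact ⟨a, ha.symm⟩
    let x : SpecialLinearGroup (Fin 2) F := ⟨!![1, 1; 0, 1], by rw [det_fin_two_of]; ring⟩
    let x' : SpecialLinearGroup (Fin 2) F := ⟨!![1, -1; 0, 1], by rw [det_fin_two_of]; ring⟩
    let t : SpecialLinearGroup (Fin 2) F := ⟨!![a, 0; 0, -a], by rw [det_fin_two_of]; linear_combination -ha⟩
    have hxx' : x * x' = 1 := by
      have h : !![(1 : F), 1; 0, 1] * !![1, -1; 0, 1] = (1 : Matrix (Fin 2) (Fin 2) F) := by
        rw [mul_fin_two, one_fin_two]
        simp
      exact Subtype.ext h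
    have hxi : x⁻¹ = x' := inv_eq_of_mul_eq_one_right hxx'
    have hpow : ∀ n : ℕ, mt (x ^ n) = !![1, (n : F); 0, 1] := by
      intro n
      induction n with
      | zero => rw [pow_zero, mt_one, one_fin_two, Nat.cast_zero]
      | succ n ih =>
        rw [pow_succ, mt_mul, ih]
        change !![1, (n : F); 0, 1] * !![1, 1; 0, 1] = _
        rw [mul_fin_two]
        simp [add_comm]
    refine ⟨x, ⟨t, ?_⟩, ?_, ?_, ?_⟩
    · rw [mul_inv_eq_iff_eq_mul, hxi]
      have h : !![a, 0; 0, -a] * !![(1 : F), 1; 0, 1] = !![1, -1; 0, 1] * !![a, 0; 0, -a] := by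
        rw [mul_fin_two, mul_fin_two]
        simp
      exact Subtype.ext h
    · have h3 : x ^ Fintype.card F = 1 := by
        apply mt_ext
        rw [hpow, FiniteField.cast_card_eq_zero, mt_one, one_fin_two]
      exact Odd.of_dvd_nat hodd (orderOf_dvd_of_pow_eq_one h3)
    · intro h
      have h3 := congrArg (fun g : SpecialLinearGroup (Fin 2) F => mt g 0 1) h
      have e : mt (1 : SpecialLinearGroup (Fin 2) F) 0 1 = 0 := by rw [mt_one]; simp
      exact one_ne_zero (h3.trans e)
    · have h3 : nu (Nat.card (centralizer ({x} : Set (SpecialLinearGroup (Fin 2) F)))) ≤ 1 := by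
        apply nu_le_one h2
        intro z hz hzz
        have h00 := congrArg (fun g : SpecialLinearGroup (Fin 2) F => mt g 0 0) hz
        have h01 := congrArg (fun g : SpecialLinearGroup (Fin 2) F => mt g 0 1) hz
        have hz2 := congrArg (fun g : SpecialLinearGroup (Fin 2) F => mt g 0 0) hzz
        have hdet : mt z 0 0 * mt z 1 1 - mt z 0 1 * mt z 1 0 = 1 := by
          have := z.2
          rw [det_fin_two] at this
          exact this
        simp only [mt_mul_apply] at h00 h01 hz2
        rw [mt_neg_one] at hz2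
        have e00 : mt x 0 0 = 1 := rfl
        have e01 : mt x 0 1 = 1 := rfl
        have e10 : mt x 1 0 = 0 := rfl
        have e11 : mt x 1 1 = 1 := rfl
        rw [e00, e01, e10] at h00
        rw [e00, e01, e11] at h01
        have e : (-1 : Matrix (Fin 2) (Fin 2) F) 0 0 = -1 := by simp
        rw [e] at hz2
        have k1 : mt z 1 0 = 0 := by linear_combination -h00
        have k2 : mt z 0 0 = mt z 1 1 := by linear_combination h01
        rw [k1] at hz2 hdet
        rw [← k2] at hdet
        apply h2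
        linear_combination hz2 - hdet
      omega

/-- **No pair with `K / Z(K) = PSL(2, q)`, `q ≥ 5` odd.** -/
theorem Pair.not_psl {M : Type*} [Group M] [Finite M] {K : Subgroup M} {c : ℕ} (h : Pair M K c)
    (hodd : Odd (Fintype.card F)) (h5 : 5 ≤ Fintype.card F)
    (e : K ⧸ center K ≃* ProjectiveSpecialLinearGroup (Fin 2) F) : False := by
  have hodd' : Odd (Nat.card F) := by rwa [Nat.card_eq_fintype_card]
  rcases Cfsg.Agent.OddCyclic.CoverTrans.sl_two_of_perfect h.qs.1.commutator_eq_top h.z2 hodd' e with h1 | ⟨⟨f⟩⟩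
  · exact h.zne h1
  · exact h.not_rOne ((rOne_sl hodd h5).of_equiv f.symm)

end Cfsg.Agent.H466.RT
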