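import Cfsg.Agent.H466.RT.CoxRel
import Cfsg.Agent.TwoESix.FiInst
import Cfsg.Prelude.Def_Spor_B

/-!
# `SL(2, 3)` in `Fi22`, `B` and `²E₆(2)`
-/

set_option autoImplicit false

namespace Cfsg.Agent.H466.RT

open Subgroup Cfsg Cfsg.Spor

theorem hasSL_fi22 (hnc : ∃ a b : Fi22, a * b ≠ b * a) : HasSL Fi22 := by
  let t := gn Fi22.edges Fi22.extra
  have hn : ∀ x : Fi22.Gen, x ∈ coxNodes Fi22.edges := by
    intro x; cases x <;> decide
  have hsq : ∀ x, t x * t x = 1 := fun x => gn_sq (hn x)
  have hcm : ∀ x y, coxLabel Fi22.edges x y = 2 → t x * t y = t y * t x := fun x y h => gn_comm (hn x) (hn y) h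
  have hbr : ∀ x y, coxLabel Fi22.edges x y = 3 → t x * t y * t x = t y * t x * t y :=
    fun x y h => gn_braid (hn x) (hn y) h
  have hD : DFive (t .b) (t .c) (t .d) (t .e) (t .h) :=
    ⟨hsq _, hsq _, hsq _, hsq _, hsq _, hbr _ _ (by decide), hbr _ _ (by decide), hbr _ _ (by decide),
      hbr _ _ (by decide), hcm _ _ (by decide), hcm _ _ (by decide), hcm _ _ (by decide), hcm _ _ (by decide),
      hcm _ _ (by decide), hcm _ _ (by decide)⟩
  apply hD.hasSL
  intro he
  have step : ∀ p a b, coxLabel Fi22.edges p a = 3 → coxLabel Fi22.edges p b = 2 → t a = t .e → t b = t .e →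
      t p = t .e := by
    intro p a b h1 h2 ha hb
    rw [← ha]
    exact eq_of_step (hsq p) (hsq a) (ha.trans hb.symm) (hbr p a h1) (hcm p b h2)
  have hh : t .h = t .e := he.symm
  have hf : t .f = t .e := step .f .e .h (by decide) (by decide) rfl hh
  have hd : t .d = t .e := step .d .e .f (by decide) (by decide) rfl hf
  have hc : t .c = t .e := step .c .d .e (by decide) (by decide) hd rfl
  have hb : t .b = t .e := step .b .c .d (by decide) (by decide) hc hd
  have ha : t .a = t .e := step .a .b .c (by decide) (by decide) hb hc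
  have hg : t .g = t .e := step .g .f .e (by decide) (by decide) hf rfl
  have hi : t .i = t .e := step .i .h .e (by decide) (by decide) hh rfl
  obtain ⟨u, v, huv⟩ := hnc
  apply huv
  apply comm_of_const t (PresentedGroup.closure_range_of _) (t .e)
  intro x
  cases x <;> first | rfl | assumption

theorem hasSL_B (hnc : ∃ a b : BabyMonster, a * b ≠ b * a) : HasSL BabyMonster := by
  let t := gn BabyMonster.edges BabyMonster.extra
  have hn : ∀ x : BabyMonster.Gen, x ∈ coxNodes BabyMonster.edges := by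
    intro x; cases x <;> decide
  have hsq : ∀ x, t x * t x = 1 := fun x => gn_sq (hn x)
  have hcm : ∀ x y, coxLabel BabyMonster.edges x y = 2 → t x * t y = t y * t x :=
    fun x y h => gn_comm (hn x) (hn y) h
  have hbr : ∀ x y, coxLabel BabyMonster.edges x y = 3 → t x * t y * t x = t y * t x * t y :=
    fun x y h => gn_braid (hn x) (hn y) h
  have hD : DFive (t .t3) (t .t4) (t .t5) (t .t6) (t .t9) :=
    ⟨hsq _, hsq _, hsq _, hsq _, hsq _, hbr _ _ (by decide), hbr _ _ (by decide), hbr _ _ (by decide),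
      hbr _ _ (by decide), hcm _ _ (by decide), hcm _ _ (by decide), hcm _ _ (by decide), hcm _ _ (by decide),
      hcm _ _ (by decide), hcm _ _ (by decide)⟩
  apply hD.hasSL
  intro he
  have step : ∀ p a b, coxLabel BabyMonster.edges p a = 3 → coxLabel BabyMonster.edges p b = 2 → t a = t .t6 →
      t b = t .t6 → t p = t .t6 := by
    intro p a b h1 h2 ha hb
    rw [← ha]
    exact eq_of_step (hsq p) (hsq a) (ha.trans hb.symm) (hbr p a h1) (hcm p b h2)
  have h9 : t .t9 = t .t6 := he.symm
  have h7 : t .t7 = t .t6 := step .t7 .t6 .t9 (by decide) (by decide) rfl h9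
  have h8 : t .t8 = t .t6 := step .t8 .t7 .t6 (by decide) (by decide) h7 rfl
  have h5 : t .t5 = t .t6 := step .t5 .t6 .t7 (by decide) (by decide) rfl h7
  have h4 : t .t4 = t .t6 := step .t4 .t5 .t6 (by decide) (by decide) h5 rfl
  have h3 : t .t3 = t .t6 := step .t3 .t4 .t5 (by decide) (by decide) h4 h5
  have h2 : t .t2 = t .t6 := step .t2 .t3 .t4 (by decide) (by decide) h3 h4
  have h1 : t .t1 = t .t6 := step .t1 .t2 .t3 (by decide) (by decide) h2 h3
  have h10 : t .t10 = t .t6 := step .t10 .t9 .t6 (by decide) (by decide) h9 rfl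
  have h11 : t .t11 = t .t6 := step .t11 .t10 .t9 (by decide) (by decide) h10 h9
  obtain ⟨u, v, huv⟩ := hnc
  apply huv
  apply comm_of_const t (PresentedGroup.closure_range_of _) (t .t6)
  intro x
  cases x <;> first | rfl | assumption

open Cfsg.Agent.TwoESix.Main Cfsg.Agent.TwoESix.Rels in
/-- ten involutions satisfying the relations of `Y₃₃₃` -/
theorem hasSL_y333 {G : Type*} [Group G] {t : Fin 10 → G} (h : Y333 t) (hcl : closure (Set.range t) = ⊤)
    (hnc : ∃ a b : G, a * b ≠ b * a) : HasSL G := by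
  have hD : DFive (t 1) (t 2) (t 3) (t 4) (t 7) :=
    ⟨h.sq _, h.sq _, h.sq _, h.sq _, h.sq _, h.braid _ _ (by decide), h.braid _ _ (by decide),
      h.braid _ _ (by decide), h.braid _ _ (by decide), h.comm _ _ (by decide), h.comm _ _ (by decide),
      h.comm _ _ (by decide), h.comm _ _ (by decide), h.comm _ _ (by decide), h.comm _ _ (by decide)⟩
  apply hD.hasSL
  intro he
  have step : ∀ p a b, adj p a = true → adj p b = false → t a = t 4 → t b = t 4 → t p = t 4 := by
    intro p a b h1 h2 ha hb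
    rw [← ha]
    exact eq_of_step (h.sq p) (h.sq a) (ha.trans hb.symm) (h.braid p a h1) (h.comm p b h2)
  have h7 : t 7 = t 4 := he.symm
  have h5 : t 5 = t 4 := step 5 4 7 (by decide) (by decide) rfl h7
  have h3 : t 3 = t 4 := step 3 4 5 (by decide) (by decide) rfl h5
  have h2 : t 2 = t 4 := step 2 3 4 (by decide) (by decide) h3 rfl
  have h1 : t 1 = t 4 := step 1 2 3 (by decide) (by decide) h2 h3
  have h0 : t 0 = t 4 := step 0 1 2 (by decide) (by decide) h1 h2
  have h6 : t 6 = t 4 := step 6 5 4 (by decide) (by decide) h5 rfl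
  have h8 : t 8 = t 4 := step 8 7 4 (by decide) (by decide) h7 rfl
  have h9 : t 9 = t 4 := step 9 8 7 (by decide) (by decide) h8 h7
  obtain ⟨u, v, huv⟩ := hnc
  apply huv
  apply comm_of_const t hcl (t 4)
  intro x
  fin_cases x <;> first | rfl | assumption

theorem hasSL_twoE6 (F : Type) [Field F] [Fintype F] (hF : Fintype.card F = 4)
    (hnc : ∃ a b : Lie.twistedE6 F 2, a * b ≠ b * a) : HasSL (Lie.twistedE6 F 2) := by
  obtain ⟨t, r, f, hY, hcl, -⟩ := Cfsg.Agent.TwoESix.FiInst.exists_fiHom F hF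
  exact hasSL_y333 hY hcl hnc

end Cfsg.Agent.H466.RT
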