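import Cfsg.Agent.H466.RT.QClass
import Cfsg.Agent.ChevalleyStructure.G2N
import Cfsg.Agent.ChevalleyStructure.ReeVec
import Cfsg.Agent.FourTwo.BN
import Cfsg.Agent.ChevStructure.FieldMap

/-!
# Quaternion groups in `F₄(2)` and `G₂(4)`
-/

set_option autoImplicit false

namespace Cfsg.Agent.H466.RT

open Subgroup Cfsg Cfsg.Lie

section FFour

open Cfsg.Agent.FourTwo.Base

theorem hasQ_LL : HasQ LL := by
  refine ⟨wd [24, 46], wd [24, 26, 45], ?_, ?_, ?_⟩
  · rw [← wd_append, ← wd_append]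
    exact wd_eq _ _ (by decide +kernel)
  · rw [← wd_append, ← wd_append, ← wd_append]
    exact wd_eq _ _ (by decide +kernel)
  · rw [← wd_append]
    have h1 : wd ([24, 46] ++ [24, 46]) = wd [47] := wd_eq _ _ (by decide +kernel)
    rw [h1, wd_one]
    exact Cfsg.Agent.FourTwo.BN.x_ne_one (by norm_num)

theorem hasQ_F42 {F : Type} [Field F] [Fintype F] (hF : Fintype.card F = 2) : HasQ (chevF4.group F) :=
  HasQ.map (f := (Cfsg.Agent.ChevStructure.FieldMap.groupEquivOfRingEquiv chevF4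
    (ZMod.ringEquivOfPrime F Nat.prime_two hF)).toMonoidHom) (MulEquiv.injective _) hasQ_LL

end FFour

section GTwo

open Cfsg.Agent.ChevalleyStructure.G2N Cfsg.Agent.ChevalleyStructure.ReeVec

variable {F : Type*} [Field F]

theorem g2_ext {A B : Matrix chevG2.Idx chevG2.Idx F}
    (h : ∀ a b x0 x1 x2 x3 x4 x5 x6 x7 x8 x9 x10 x11 : F,
      A.mulVec (vec a b x0 x1 x2 x3 x4 x5 x6 x7 x8 x9 x10 x11) = B.mulVec (vec a b x0 x1 x2 x3 x4 x5 x6 x7 x8 x9 x10 x11)) :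
    A = B := by
  apply Matrix.toLin'.injective
  apply LinearMap.ext
  intro v
  rw [Matrix.toLin'_apply, Matrix.toLin'_apply, vec_eta v]
  exact h _ _ _ _ _ _ _ _ _ _ _ _ _ _

/-- the commutator relation of two long root elements in characteristic 2 -/
theorem comm_6_10 [CharP F 2] (s t : F) :
    (xG 6 s * xG 10 t : GL chevG2.Idx F) = xG 11 (s * t) * (xG 10 t * xG 6 s) := by
  apply Units.ext
  simp only [Units.val_mul, coe_xG]
  apply g2_ext
  intro a b x0 x1 x2 x3 x4 x5 x6 x7 x8 x9 x10 x11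
  simp only [← Matrix.mulVec_mulVec, x6_vec, x10_vec, x11_vec]
  apply vec_congr <;> rw [← sub_eq_zero] <;> ring_nf <;> reduce_mod_char!

theorem comm_6_11 [CharP F 2] (s t : F) : (xG 6 s * xG 11 t : GL chevG2.Idx F) = xG 11 t * xG 6 s := by
  apply Units.ext
  simp only [Units.val_mul, coe_xG]
  apply g2_ext
  intro a b x0 x1 x2 x3 x4 x5 x6 x7 x8 x9 x10 x11
  simp only [← Matrix.mulVec_mulVec, x6_vec, x11_vec]
  apply vec_congr <;> rw [← sub_eq_zero] <;> ring_nf <;> reduce_mod_char!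

theorem comm_10_11 [CharP F 2] (s t : F) : (xG 10 s * xG 11 t : GL chevG2.Idx F) = xG 11 t * xG 10 s := by
  apply Units.ext
  simp only [Units.val_mul, coe_xG]
  apply g2_ext
  intro a b x0 x1 x2 x3 x4 x5 x6 x7 x8 x9 x10 x11
  simp only [← Matrix.mulVec_mulVec, x10_vec, x11_vec]
  apply vec_congr <;> rw [← sub_eq_zero] <;> ring_nf <;> reduce_mod_char!

theorem xG11_ne : (xG 11 (1 : F) : GL chevG2.Idx F) ≠ 1 := by
  intro h
  have h1 : (chevG2.x F 11 1).mulVec (vec 0 0 1 0 0 0 0 0 0 0 0 0 0 0) = vec 0 0 1 0 0 0 0 0 0 0 0 0 0 0 := by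
    rw [← coe_xG, h, Units.val_one, Matrix.one_mulVec]
  rw [x11_vec] at h1
  have h2 := (vec_inj h1).1
  simp at h2

theorem xG_mem (r : ℕ) (hr : r < 12) (t : F) : (xG r t : GL chevG2.Idx F) ∈ chevG2.group F := by
  apply Subgroup.subset_closure
  refine ⟨⟨r, hr⟩, t, ?_⟩
  rw [coe_xG]
  exact dif_pos hr

theorem sq_xG [CharP F 2] (s t : F) :
    (xG 6 s * xG 10 t * (xG 6 s * xG 10 t) : GL chevG2.Idx F) = xG 11 (s * t) := by
  have h2 : ∀ u : F, u + u = 0 := fun u => CharTwo.add_self_eq_zero u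
  have h3 : ∀ (r : ℕ) (u : F), (xG r u * xG r u : GL chevG2.Idx F) = 1 := fun r u => by
    rw [← xG_add, h2, xG_zero]
  calc (xG 6 s * xG 10 t * (xG 6 s * xG 10 t) : GL chevG2.Idx F)
      = xG 6 s * xG 10 t * (xG 11 (s * t) * (xG 10 t * xG 6 s)) := by rw [comm_6_10]
    _ = xG 6 s * (xG 10 t * xG 11 (s * t)) * xG 10 t * xG 6 s := by simp only [mul_assoc]
    _ = (xG 6 s * xG 11 (s * t)) * (xG 10 t * xG 10 t) * xG 6 s := by
        rw [comm_10_11]; simp only [mul_assoc]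
    _ = xG 11 (s * t) * (xG 6 s * xG 6 s) := by rw [h3, comm_6_11, mul_one, mul_assoc]
    _ = xG 11 (s * t) := by rw [h3, mul_one]

theorem hasQ_G24 {F : Type} [Field F] [Fintype F] (hF : Fintype.card F = 4) : HasQ (chevG2.group F) := by
  obtain ⟨ω, hω⟩ := exists_omega hF
  have hch : CharP F 2 := by
    have h1 := FiniteField.cast_card_eq_zero F
    rw [hF] at h1
    have h2 : (2 : F) * 2 = 0 := by
      have : ((4 : ℕ) : F) = 2 * 2 := by norm_num
      rw [← this]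
      exact h1
    exact CharTwo.of_one_ne_zero_of_two_eq_zero one_ne_zero (mul_self_eq_zero.1 h2)
  have h2 : (2 : F) = 0 := CharTwo.two_eq_zero
  let i : chevG2.group F := ⟨xG 6 1 * xG 10 1, mul_mem (xG_mem 6 (by norm_num) _) (xG_mem 10 (by norm_num) _)⟩
  let j : chevG2.group F := ⟨xG 6 ω * xG 10 (ω ^ 2), mul_mem (xG_mem 6 (by norm_num) _) (xG_mem 10 (by norm_num) _)⟩
  have h3 : ω * ω ^ 2 = 1 := by linear_combination (ω - 1) * hω
  have hii : (xG 6 1 * xG 10 1 * (xG 6 1 * xG 10 1) : GL chevG2.Idx F) = xG 11 1 := by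
    rw [sq_xG, one_mul]
  refine ⟨i, j, ?_, ?_, ?_⟩
  · apply Subtype.ext
    change (xG 6 1 * xG 10 1 * (xG 6 1 * xG 10 1) : GL chevG2.Idx F) =
      xG 6 ω * xG 10 (ω ^ 2) * (xG 6 ω * xG 10 (ω ^ 2))
    rw [sq_xG, sq_xG, h3, one_mul]
  · apply Subtype.ext
    change (xG 6 1 * xG 10 1 * (xG 6 ω * xG 10 (ω ^ 2)) * (xG 6 1 * xG 10 1 * (xG 6 ω * xG 10 (ω ^ 2))) :
      GL chevG2.Idx F) = xG 6 1 * xG 10 1 * (xG 6 1 * xG 10 1)
    rw [hii]
    have hdd : ∀ u : F, u + u = 0 := fun u => CharTwo.add_self_eq_zero u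
    have hsq : ∀ (r : ℕ) (u : F), (xG r u * xG r u : GL chevG2.Idx F) = 1 := fun r u => by
      rw [← xG_add, hdd, xG_zero]
    have h4 : (xG 10 1 * xG 6 ω : GL chevG2.Idx F) = xG 11 ω * (xG 6 ω * xG 10 1) := by
      rw [comm_6_10, mul_one]
      calc (xG 10 1 * xG 6 ω : GL chevG2.Idx F) = (xG 11 ω * xG 11 ω) * (xG 10 1 * xG 6 ω) := by
            rw [hsq, one_mul]
        _ = _ := by simp only [mul_assoc]
    have h5 : (xG 6 1 * xG 10 1 * (xG 6 ω * xG 10 (ω ^ 2)) : GL chevG2.Idx F) =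
        xG 11 ω * (xG 6 (1 + ω) * xG 10 (1 + ω ^ 2)) := by
      calc (xG 6 1 * xG 10 1 * (xG 6 ω * xG 10 (ω ^ 2)) : GL chevG2.Idx F)
          = xG 6 1 * (xG 10 1 * xG 6 ω) * xG 10 (ω ^ 2) := by simp only [mul_assoc]
        _ = (xG 6 1 * xG 11 ω) * xG 6 ω * xG 10 1 * xG 10 (ω ^ 2) := by rw [h4]; simp only [mul_assoc]
        _ = xG 11 ω * (xG 6 (1 + ω) * xG 10 (1 + ω ^ 2)) := by
            rw [comm_6_11, xG_add, xG_add]; simp only [mul_assoc]
    have h6 : (xG 6 (1 + ω) * xG 10 (1 + ω ^ 2) * xG 11 ω : GL chevG2.Idx F) =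
        xG 11 ω * (xG 6 (1 + ω) * xG 10 (1 + ω ^ 2)) := by
      rw [mul_assoc, comm_10_11, ← mul_assoc, comm_6_11, mul_assoc]
    rw [h5]
    calc (xG 11 ω * (xG 6 (1 + ω) * xG 10 (1 + ω ^ 2)) * (xG 11 ω * (xG 6 (1 + ω) * xG 10 (1 + ω ^ 2))) :
          GL chevG2.Idx F)
        = xG 11 ω * (xG 6 (1 + ω) * xG 10 (1 + ω ^ 2) * xG 11 ω) * (xG 6 (1 + ω) * xG 10 (1 + ω ^ 2)) := by
          simp only [mul_assoc]
      _ = (xG 11 ω * xG 11 ω) * (xG 6 (1 + ω) * xG 10 (1 + ω ^ 2) * (xG 6 (1 + ω) * xG 10 (1 + ω ^ 2))) := by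
          rw [h6]; simp only [mul_assoc]
      _ = xG 11 1 := by
          rw [hsq, one_mul, sq_xG]
          congr 1
          linear_combination ω * hω
  · intro h
    exact xG11_ne (hii.symm.trans (congrArg Subtype.val h))

end GTwo

end Cfsg.Agent.H466.RT
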