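import Cfsg.Agent.H466.RT.SLThree
import Cfsg.Agent.GH.LowRankMathieu
import Cfsg.Agent.SporadicA.Co0Mono
import Cfsg.Agent.SporadicA.Co0Basic

/-!
# Quaternion groups in `M₁₂`, `M₂₂`, `HS`
-/

set_option autoImplicit false

namespace Cfsg.Agent.H466.RT

open Subgroup Cfsg Cfsg.Spor
open Cfsg.Agent.SporadicA.GolayBase Cfsg.Agent.J4Type.CocodeMask
open Cfsg.Agent.SporadicA.GolayPerm hiding pcomp papp_pcomp
open Cfsg.Agent.GH.LowRankMathieu

theorem IsQ.of_coe {G : Type*} [Group G] {H : Subgroup G} {i j : H} (h : IsQ (i : G) (j : G)) : IsQ i j :=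
  ⟨Subtype.ext h.1, Subtype.ext h.2.1, fun h1 => h.2.2 (congrArg Subtype.val h1)⟩

theorem IsQ.coe {G : Type*} [Group G] {H : Subgroup G} {i j : H} (h : IsQ i j) : IsQ (i : G) (j : G) :=
  h.map (f := H.subtype) H.subtype_injective

theorem isQ_tab {g h : M24} {P Q : ℕ} (hg : IsTab g P) (hh : IsTab h Q) (h1 : pcomp P P = pcomp Q Q)
    (h2 : pcomp (pcomp P Q) (pcomp P Q) = pcomp P P) (h3 : papp (pcomp P P) 1 ≠ 1) : IsQ g h := by
  refine ⟨(hg.mul hg).eq (by rw [h1]; exact hh.mul hh), ?_, ?_⟩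
  · exact ((hg.mul hh).mul (hg.mul hh)).eq (by rw [h2]; exact hg.mul hg)
  · intro h4
    have h5 := (hg.mul hg) (some 1)
    rw [h4] at h5
    have e : idx (some 1 : GolayPt) = 1 := by decide +kernel
    rw [e] at h5
    apply h3
    rw [← h5]
    exact e

def iM22 : ℕ := 984040680315693133367458329498426016
def jM22 : ℕ := 976583094433555277859243436347536512
def iM12 : ℕ := 320281635101179434578238902529982657
def jM12 : ℕ := 860039373484331513549293115278772744

theorem isQ_M22 : IsQ (mk22 iM22 (by decide +kernel) (by decide +kernel) (by decide +kernel))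
    (mk22 jM22 (by decide +kernel) (by decide +kernel) (by decide +kernel)) :=
  IsQ.of_coe (isQ_tab (isTab_mk iM22 (by decide +kernel)) (isTab_mk jM22 (by decide +kernel)) (by decide +kernel)
    (by decide +kernel) (by decide +kernel)).coe

theorem hasQ_M22 : HasQ M22 := ⟨_, _, isQ_M22⟩

theorem mem_M12_of_tab {g : M24} {P : ℕ} (hg : IsTab g P)
    (h : ∀ p ∈ Cfsg.Agent.SporadicStructure.M11InvPerms.dd, ∀ q : GolayPt, idx q = papp P (idx p) →
      q ∈ Cfsg.Agent.SporadicStructure.M11InvPerms.dd) : (g : Equiv.Perm GolayPt) ∈ M12 :=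
  Cfsg.Agent.MTwelveType.SylowModel.mem_M12 g.2 (fun p hp => h p hp _ (hg p))

theorem hasQ_M12 : HasQ M12 := by
  have hi : IsTab (mk iM12 (by decide +kernel)) iM12 := isTab_mk iM12 _
  have hj : IsTab (mk jM12 (by decide +kernel)) jM12 := isTab_mk jM12 _
  have h1 := mem_M12_of_tab hi (by decide +kernel)
  have h2 := mem_M12_of_tab hj (by decide +kernel)
  exact ⟨⟨_, h1⟩, ⟨_, h2⟩, IsQ.of_coe (isQ_tab hi hj (by decide +kernel) (by decide +kernel) (by decide +kernel)).coe⟩

section HigmanSims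

open Cfsg.Agent.SporadicA.Co0Mono

theorem permCo0_inj : Function.Injective permCo0 := by
  intro s t hst
  have h1 : ∀ i j : GolayPt, (s : Equiv.Perm GolayPt).symm j = i → (t : Equiv.Perm GolayPt).symm j = i := by
    intro i j hij
    have h2 : ((permCo0 s • Cfsg.Agent.SporadicA.Co0Basic.e8 i : leechLattice) : GolayPt → ℤ) =
        ((permCo0 t • Cfsg.Agent.SporadicA.Co0Basic.e8 i : leechLattice) : GolayPt → ℤ) := by rw [hst]
    rw [permCo0_smul, permCo0_smul] at h2
    have h3 := congrFun h2 j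
    rw [permMap_apply, permMap_apply, Cfsg.Agent.SporadicA.Co0Basic.e8_apply,
      Cfsg.Agent.SporadicA.Co0Basic.e8_apply, if_pos hij] at h3
    by_contra hcon
    rw [if_neg hcon] at h3
    exact absurd h3 (by norm_num)
  apply Subtype.ext
  have h2 : (s : Equiv.Perm GolayPt).symm = (t : Equiv.Perm GolayPt).symm :=
    Equiv.ext fun j => (h1 _ j rfl).symm
  exact Equiv.symm_bijective.injective h2

theorem permCo0_mem_HS {s : M24} (h0 : (s : Equiv.Perm GolayPt) none = none)
    (h1 : (s : Equiv.Perm GolayPt) (some 0) = some 0) : ((permCo0 s : Co0) : Equiv.Perm leechLattice) ∈ HS := by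
  have h0' : (s : Equiv.Perm GolayPt).symm none = none := by rw [Equiv.symm_apply_eq, h0]
  have h1' : (s : Equiv.Perm GolayPt).symm (some 0) = some 0 := by rw [Equiv.symm_apply_eq, h1]
  have h2 : ∀ p, (s : Equiv.Perm GolayPt).symm p = none ↔ p = none := by
    intro p
    rw [Equiv.symm_apply_eq, h0]
  have h3 : ∀ p, (s : Equiv.Perm GolayPt).symm p = some 0 ↔ p = some 0 := by
    intro p
    rw [Equiv.symm_apply_eq, h1]
  refine ⟨⟨(permCo0 s).2, ?_⟩, ?_⟩
  · change _ ∈ MulAction.stabilizer _ _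
    rw [MulAction.mem_stabilizer_iff]
    apply Subtype.ext
    change ((permCo0 s • leechV : leechLattice) : GolayPt → ℤ) = vecV
    rw [permCo0_smul]
    funext p
    rw [permMap_apply]
    change vecV _ = vecV p
    simp only [vecV, h2]
  · change _ ∈ MulAction.stabilizer _ _
    rw [MulAction.mem_stabilizer_iff]
    apply Subtype.ext
    change ((permCo0 s • leechU' : leechLattice) : GolayPt → ℤ) = vecU'
    rw [permCo0_smul]
    funext p
    rw [permMap_apply]
    change vecU' _ = vecU' p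
    simp only [vecU', h2, h3]

theorem fix_of_mem_M22 (g : M22) : (g : Equiv.Perm GolayPt) none = none ∧
    (g : Equiv.Perm GolayPt) (some 0) = some 0 := ⟨g.2.1.2, g.2.2⟩

theorem hasQ_HS : HasQ HS := by
  obtain ⟨i, j, hq⟩ := hasQ_M22
  have hi := fix_of_mem_M22 i
  have hj := fix_of_mem_M22 j
  let i' : M24 := ⟨i, i.2.1.1⟩
  let j' : M24 := ⟨j, j.2.1.1⟩
  have h1 : IsQ i' j' := IsQ.of_coe hq.coe
  have h2 : IsQ (permCo0 i') (permCo0 j') := h1.map permCo0_inj
  exact ⟨⟨_, permCo0_mem_HS (s := i') hi.1 hi.2⟩, ⟨_, permCo0_mem_HS (s := j') hj.1 hj.2⟩, IsQ.of_coe h2.coe⟩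

end HigmanSims

end Cfsg.Agent.H466.RT
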