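import Cfsg.Agent.H466.RT.AltEight
import Cfsg.Agent.J2Sylow.SporSylow
import Cfsg.Agent.LThreeCo1T8.Main
import Cfsg.Agent.KFacts.Ru.Core

/-!
# Quaternion groups in `J₂`, `Ru`, `Co₁`
-/

set_option autoImplicit false

namespace Cfsg.Agent.H466.RT

open Subgroup Cfsg Cfsg.Spor

theorem hasQ_J2 : HasQ J2 := by
  obtain ⟨f, hf⟩ := Cfsg.Agent.J2Sylow.SporSylow.exists_hom
  refine HasQ.map hf ⟨⟨.e, .e, .o, false⟩, ⟨.w, .u, .o, false⟩, ?_, ?_, ?_⟩ <;> decide

theorem hasSL_Co1 : HasSL Co1 := by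
  obtain ⟨A, -, ⟨e⟩, -⟩ := Cfsg.Agent.LThreeCo1T8.Main.exists_alt
  have h1 : HasSL A := (hasSL_alt (n := 9) (by norm_num)).map (f := e.symm.toMonoidHom) e.symm.injective
  exact h1.map (f := A.subtype) A.subtype_injective

section Ru

open Cfsg.Agent.RuD.Letters Cfsg.Agent.SporadicB Cfsg.Agent.SporRec.R3.Kernel Cfsg.Agent.KFacts.Ru

def wi : List ℕ := [3, 1, 5, 4, 7]
def wj : List ℕ := [1, 3, 1, 5, 7, 6]

theorem chk1 : chkEq (wi ++ wi) (wj ++ wj) = true := by decide +kernel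
theorem chk2 : chkEq (wi ++ wj ++ (wi ++ wj)) (wi ++ wi) = true := by decide +kernel
theorem chk3 : Nat.beq (evalK (wi ++ wi) 0) 0 = false := by decide +kernel

open Cfsg.Agent.SporRec.TCUpperCert in
theorem hasQ_ru : HasQ Ru := by
  have h1 : IsQ (wprod ml wi : RuOrder.H) (wprod ml wj) := by
    refine ⟨?_, ?_, ?_⟩
    · rw [← wprod_append, ← wprod_append]
      exact eq_of_chkEq chk1
    · rw [← wprod_append, ← wprod_append, ← wprod_append]
      exact eq_of_chkEq chk2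
    · rw [← wprod_append]
      intro h
      have h1 := evalK_eq (wi ++ wi) RuOrder.b1
      rw [h] at h1
      have h3 : evalK (wi ++ wi) 0 = 0 := h1.symm
      have h4 := chk3
      rw [h3] at h4
      exact absurd h4 (by decide)
  exact HasQ.map (f := Cfsg.Agent.RuLat.Main.equiv.symm.toMonoidHom) Cfsg.Agent.RuLat.Main.equiv.symm.injective
    ⟨_, _, h1⟩

end Ru

end Cfsg.Agent.H466.RT
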