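import Cfsg.Agent.H466.RT.CoxRel
import Cfsg.Agent.SporRec.SuzCl.Inv

/-!
# A quaternion group in `Suz`
-/

set_option autoImplicit false

namespace Cfsg.Agent.H466.RT

open Subgroup Cfsg Cfsg.Spor

theorem hasQ_suz : HasQ Suz := by
  let t := gn Suz.edges Suz.extra
  have hn : ∀ x : Suz.Gen, x ∈ coxNodes Suz.edges := by
    intro x; cases x <;> decide
  have hsq : ∀ x, t x * t x = 1 := fun x => gn_sq (hn x)
  have hcm : ∀ x y, coxLabel Suz.edges x y = 2 → t x * t y = t y * t x := fun x y h => gn_comm (hn x) (hn y) h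
  have h1 : t .a * ((t .c * t .d) ^ 4)⁻¹ = 1 := by
    have h := gn_extra (edges := Suz.edges) (extra := Suz.extra) (r := Suz.a * ((Suz.c * Suz.d) ^ 4)⁻¹)
      (by simp [Suz.extra])
    rw [map_mul, map_inv, map_pow, map_mul] at h
    exact h
  have h2 : t .a * ((t .f * t .g) ^ 2)⁻¹ = 1 := by
    have h := gn_extra (edges := Suz.edges) (extra := Suz.extra) (r := Suz.a * ((Suz.f * Suz.g) ^ 2)⁻¹)
      (by simp [Suz.extra])
    rw [map_mul, map_inv, map_pow, map_mul] at h
    exact h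
  rw [mul_inv_eq_one] at h1 h2
  have hcf : t .c * t .f = t .f * t .c := hcm _ _ (by decide)
  have hcg : t .c * t .g = t .g * t .c := hcm _ _ (by decide)
  have hdf : t .d * t .f = t .f * t .d := hcm _ _ (by decide)
  have hdg : t .d * t .g = t .g * t .d := hcm _ _ (by decide)
  have hf : Commute (t .c * t .d) (t .f) := Commute.mul_left hcf hdf
  have hg : Commute (t .c * t .d) (t .g) := Commute.mul_left hcg hdg
  refine ⟨t .f * t .g, t .f * (t .c * t .d) ^ 2, isQ_of (a := t .a) (hsq _) ?_ (hsq _) ?_ (hf.pow_left 2).eq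
    (hg.pow_left 2).eq ?_⟩
  · rw [h2, pow_two]
  · rw [h1, ← pow_add]
  · exact Cfsg.Agent.SporRec.SuzCl.a_ne

end Cfsg.Agent.H466.RT
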