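import Cfsg.Agent.H466.RT.Kill
import Cfsg.Agent.H466.RT.SLThree
import Cfsg.Agent.ClassicalGeometry.PSL2Basic
import Cfsg.Agent.ClassicalGeometry.SLTwoFour
import Cfsg.Agent.StdAlt.PermTypes
import Cfsg.Agent.OddCyclic.CoverTrans

/-!
# Pairs with `K / Z(K) = PSL(2, q)`, `q` odd
-/

set_option autoImplicit false

namespace Cfsg.Agent.H466.RT

open Subgroup Cfsg

/-- centre of order 2, involutions central, quaternion subgroup, small real element of odd order -/
structure ROne (L : Type*) [Group L] : Prop where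
  card : Nat.card (center L) = 2
  inv : ∀ x : L, x * x = 1 → x ∈ center L
  quat : HasQ L
  real : ∃ x : L, Real' x ∧ Odd (orderOf x) ∧ x ≠ 1 ∧ nu (Nat.card (centralizer ({x} : Set L))) + 2 ≤ nu (Nat.card L)

theorem Real'.map {G H : Type*} [Group G] [Group H] (f : G →* H) {x : G} (h : Real' x) : Real' (f x) := by
  obtain ⟨g, hg⟩ := h
  exact ⟨f g, by rw [← map_mul, ← map_inv, ← map_mul, hg, map_inv]⟩

theorem card_centralizer_equiv {G H : Type*} [Group G] [Group H] (e : G ≃* H) (x : G) :
    Nat.card (centralizer ({e x} : Set H)) = Nat.card (centralizer ({x} : Set G)) := by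
  have h1 : centralizer ({e x} : Set H) = (centralizer ({x} : Set G)).map e.toMonoidHom := by
    ext y
    rw [mem_map, mem_cent]
    constructor
    · intro hy
      refine ⟨e.symm y, ?_, e.apply_symm_apply y⟩
      rw [mem_cent]
      apply e.injective
      rw [map_mul, map_mul, map_inv, e.apply_symm_apply]
      exact hy
    · rintro ⟨y, hy, rfl⟩
      have h2 := mem_cent.1 hy
      change e y * e x * (e y)⁻¹ = e x
      rw [← map_mul, ← map_inv, ← map_mul, h2]
  rw [h1]
  exact card_map_of_injective e.injective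

theorem ROne.of_equiv {L L' : Type*} [Group L] [Group L'] (e : L ≃* L') (h : ROne L) : ROne L' := by
  refine ⟨?_, ?_, ?_, ?_⟩
  · rw [← h.card]
    exact Nat.card_congr (Subgroup.centerCongr e).symm.toEquiv
  · intro x hx
    have h1 : e.symm x * e.symm x = 1 := by rw [← map_mul, hx, map_one]
    have h2 := mem_center_iff.1 (h.inv _ h1)
    rw [mem_center_iff]
    intro g
    apply e.symm.injective
    rw [map_mul, map_mul]
    exact h2 _
  · exact h.quat.map (f := e.toMonoidHom) e.injective
  · obtain ⟨x, h1, h2, h3, h4⟩ := h.real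
    refine ⟨e x, h1.map e.toMonoidHom, ?_, ?_, ?_⟩
    · have : orderOf (e x) = orderOf x := MulEquiv.orderOf_eq e x
      rw [this]
      exact h2
    · exact fun h5 => h3 ((map_eq_one_iff e e.injective).1 h5)
    · rw [card_centralizer_equiv, ← Nat.card_congr e.toEquiv]
      exact h4

theorem Pair.not_rOne {M : Type*} [Group M] [Finite M] {K : Subgroup M} {c : ℕ} (h : Pair M K c) : ¬ ROne K := by
  intro hr
  obtain ⟨i, j, hq⟩ := hr.quat
  have hcm := hq.comm
  have hii : i * i ∈ center K := by
    apply hr.inv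
    have h1 : j * (i * i) = i * i * j := by rw [hq.1]; exact (mul_assoc j j j).symm
    have h2 : i * j * (i * j) = i * i := hq.2.1
    -- `i² = i j i j`, `j i j = i`
    have h3 : j * i * j = i := by
      have : i * (j * i * j) = i * i := by rw [← h2]; simp only [mul_assoc]
      exact mul_left_cancel this
    have h4 : j * j * (i * i) = 1 := by
      -- `i = j i j = j (j i j) j = j² i j²`
      have h5 : i = j * j * i * (j * j) := by
        calc i = j * i * j := h3.symm
          _ = j * (j * i * j) * j := congrArg (fun t => j * t * j) h3.symm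
          _ = j * j * i * (j * j) := by simp only [mul_assoc]
      have h6 : i * (j * j) = j * j * i := by rw [← hq.1]; simp only [mul_assoc]
      have h7 : i = j * j * (j * j) * i := by
        calc i = j * j * (i * (j * j)) := by rw [← mul_assoc]; exact h5
          _ = j * j * (j * j) * i := by rw [h6]; simp only [mul_assoc]
      rw [hq.1]
      have h8 : j * j * (j * j) * i = 1 * i := by rw [one_mul]; exact h7.symm
      exact mul_right_cancel h8
    rw [hq.1] at h4 ⊢
    exact h4
  have hin : i ∉ center K := by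
    intro h1
    have h2 := mem_center_iff.1 h1 j
    apply hq.2.2
    rw [← hcm]
    calc i⁻¹ * j⁻¹ * i * j = i⁻¹ * j⁻¹ * (i * j) := by rw [mul_assoc]
      _ = i⁻¹ * j⁻¹ * (j * i) := by rw [h2]
      _ = 1 := by group
  have hjn : j ∉ center K := by
    intro h1
    have h2 := mem_center_iff.1 h1 i
    apply hq.2.2
    rw [← hcm]
    calc i⁻¹ * j⁻¹ * i * j = i⁻¹ * j⁻¹ * (i * j) := by rw [mul_assoc]
      _ = i⁻¹ * j⁻¹ * (j * i) := by rw [h2]
      _ = 1 := by group
  apply h.false_of_rankOne hr.card hr.inv ?_ hr.real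
  have e1 : ∀ x : K, (x : K ⧸ center K) = 1 ↔ x ∈ center K := fun x => QuotientGroup.eq_one_iff x
  refine ⟨(i : K ⧸ center K), (j : K ⧸ center K), ?_, ?_, ?_, ?_, ?_, ?_⟩
  · rw [← QuotientGroup.mk_mul, e1]; exact hii
  · rw [← QuotientGroup.mk_mul, e1, ← hq.1]; exact hii
  · rw [Ne, e1]; exact hin
  · rw [Ne, e1]; exact hjn
  · intro h1
    rw [QuotientGroup.eq] at h1
    have h2 := mem_center_iff.1 h1 i
    have h3 : i * j = j * i := by
      calc i * j = i * (i * (i⁻¹ * j)) := by group
        _ = i * (i⁻¹ * j * i) := by rw [h2]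
        _ = j * i := by group
    apply hq.2.2
    rw [← hcm]
    calc i⁻¹ * j⁻¹ * i * j = i⁻¹ * j⁻¹ * (i * j) := by rw [mul_assoc]
      _ = i⁻¹ * j⁻¹ * (j * i) := by rw [h3]
      _ = 1 := by group
  · rw [← QuotientGroup.mk_mul, ← QuotientGroup.mk_mul, QuotientGroup.eq]
    have h1 : (i * j)⁻¹ * (j * i) = (i * i)⁻¹ := by
      rw [← hcm]; group
    rw [h1]
    exact (center K).inv_mem hii

end Cfsg.Agent.H466.RT
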