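import Cfsg.Agent.H466.RT.LThree
import Cfsg.Agent.SignalizersComponents.BalEndSz
import Cfsg.Agent.OddCyclic.FFSz
import Cfsg.Agent.RuRed.SzRelMore

/-!
# Suzuki groups have one class of involutions, 2-rank at least 3, centralizers of involutions 2-groups
-/

set_option autoImplicit false

namespace Cfsg.Agent.H466.RT

open Subgroup Cfsg

theorem easy_sz {J : Type*} [Group J] [Finite J] (h : Lie.IsoSuzuki J) : Easy J := by
  have : Fact (Nat.Prime 2) := ⟨Nat.prime_two⟩
  refine ⟨?_, ?_, ?_⟩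
  · intro s t hs hs1 ht ht1
    exact isConj_iff.2 (Cfsg.Agent.OddCyclic.FFSz.conj_inv h hs hs1 ht ht1)
  · intro s hs hs1
    exact Cfsg.Agent.SignalizersComponents.BalEndSz.isPGroup_centralizer_suzuki h
      (orderOf_eq_prime (by rw [pow_two, hs]) hs1)
  · obtain ⟨F, iF, iF', m, hm, hF, ⟨R⟩⟩ := ThreePrime.SzRel.exists_rel h
    have h8 : 8 ≤ Nat.card F := by
      rw [Nat.card_eq_fintype_card, hF]
      exact ThreePrime.SzRel.Rel.eight_le hm
    classical
    have hss : ∀ x : F, x + x = 0 := R.add_self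
    obtain ⟨x, hx⟩ := ThreePrime.SzRel.Rel.exists_not_mem h8 ({0, 1} : Finset F)
      (Finset.card_le_two.trans (by norm_num))
    obtain ⟨y, hy⟩ := ThreePrime.SzRel.Rel.exists_not_mem h8 ({0, 1, x, 1 + x} : Finset F)
      (Finset.card_le_four.trans (by norm_num))
    simp only [Finset.mem_insert, Finset.mem_singleton, not_or] at hx hy
    have hmul : ∀ a b : F, R.u 0 a * R.u 0 b = R.u 0 (a + b) := by
      intro a b
      rw [R.u_mul, add_zero, zero_mul, add_zero]
    have hne : ∀ {a b : F}, a ≠ b → R.u 0 a ≠ R.u 0 b := fun hab hc => hab (R.u_inj hc).2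
    refine ⟨R.u 0 1, R.u 0 x, R.u 0 y, ?_⟩
    constructor
    · rw [hmul, hss, R.u_zero]
    · rw [hmul, hss, R.u_zero]
    · rw [hmul, hss, R.u_zero]
    · rw [hmul, hmul, add_comm]
    · rw [hmul, hmul, add_comm]
    · rw [hmul, hmul, add_comm]
    · rw [← R.u_zero]; exact hne one_ne_zero
    · rw [← R.u_zero]; exact hne hx.1
    · rw [← R.u_zero]; exact hne hy.1
    · exact hne (Ne.symm hx.2)
    · exact hne (Ne.symm hy.2.1)
    · exact hne (Ne.symm hy.2.2.1)
    · rw [hmul]; exact hne (Ne.symm hy.2.2.2)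

theorem nu_sz {J : Type*} [Group J] [Finite J] (h : Lie.IsoSuzuki J) : 6 ≤ nu (Nat.card J) := by
  obtain ⟨F, iF, iF', m, hm, hF, ⟨R⟩⟩ := ThreePrime.SzRel.exists_rel h
  have h1 : Nat.card R.T = 2 ^ (2 * (2 * m + 1)) := by
    rw [R.card_T, Nat.card_eq_fintype_card, hF, ← pow_add]
    congr 1
    ring
  have h2 : nu (Nat.card R.T) ≤ nu (Nat.card J) := nu_le Nat.card_pos.ne' (card_subgroup_dvd_card _)
  rw [h1, nu_two_pow] at h2
  omega

end Cfsg.Agent.H466.RT
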